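import Mathlib

/-!
An abelian group of invertible linear maps of a finite vector space whose order is invertible in
the field has fewer elements than the space, with a gap unless it acts irreducibly.
-/

set_option autoImplicit false

namespace CfsgLib.H29

variable {F : Type*} [Field F]

theorem eq_one_of_unipotent {V : Type*} [AddCommGroup V] [Module F V] {m : ℕ} (hm : (m : F) ≠ 0)
    {g : Module.End F V} (hg : g ^ m = 1) {W : Submodule F V}
    (h1 : ∀ x ∈ W, g x = x) (h2 : ∀ x : V, g x - x ∈ W) : g = 1 := by
  refine LinearMap.ext fun x => ?_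
  have key : ∀ k : ℕ, (g ^ k) x = x + (k : F) • (g x - x) := by
    intro k
    induction k with
    | zero => simp
    | succ k ih =>
      rw [pow_succ', Module.End.mul_apply, ih, map_add, map_smul, h1 _ (h2 x), Nat.cast_succ,
        add_smul, one_smul]
      abel
  have h := key m
  rw [hg] at h
  simp only [Module.End.one_apply, left_eq_add, smul_eq_zero, hm, false_or] at h
  simpa [sub_eq_zero] using h

/-- Restriction of units preserving a submodule, as units of its endomorphisms. -/
noncomputable def restrictHom {V : Type*} [AddCommGroup V] [Module F V]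
    (U : Subgroup (Module.End F V)ˣ) (W : Submodule F V)
    (h : ∀ u ∈ U, ∀ x ∈ W, (u : Module.End F V) x ∈ W) : U →* (Module.End F W)ˣ :=
  MonoidHom.toHomUnits
    { toFun := fun u => (u.1 : Module.End F V).restrict (h u.1 u.2)
      map_one' := by ext x; rfl
      map_mul' := fun a b => by ext x; rfl }

theorem restrictHom_apply {V : Type*} [AddCommGroup V] [Module F V]
    (U : Subgroup (Module.End F V)ˣ) (W : Submodule F V)
    (h : ∀ u ∈ U, ∀ x ∈ W, (u : Module.End F V) x ∈ W) (u : U) (x : W) :
    (((restrictHom U W h u : (Module.End F W)ˣ) : Module.End F W) x : V) =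
      (u.1 : Module.End F V) x := rfl

/-- The action of units preserving a submodule on the quotient. -/
noncomputable def quotientHom {V : Type*} [AddCommGroup V] [Module F V]
    (U : Subgroup (Module.End F V)ˣ) (W : Submodule F V)
    (h : ∀ u ∈ U, ∀ x ∈ W, (u : Module.End F V) x ∈ W) : U →* (Module.End F (V ⧸ W))ˣ :=
  MonoidHom.toHomUnits
    { toFun := fun u => W.mapQ W (u.1 : Module.End F V) (fun x hx => h u.1 u.2 x hx)
      map_one' := Submodule.linearMap_qext _ (LinearMap.ext fun _ => rfl)
      map_mul' := fun _ _ => Submodule.linearMap_qext _ (LinearMap.ext fun _ => rfl) }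

theorem quotientHom_apply {V : Type*} [AddCommGroup V] [Module F V]
    (U : Subgroup (Module.End F V)ˣ) (W : Submodule F V)
    (h : ∀ u ∈ U, ∀ x ∈ W, (u : Module.End F V) x ∈ W) (u : U) (x : V) :
    ((quotientHom U W h u : (Module.End F (V ⧸ W))ˣ) : Module.End F (V ⧸ W))
      (Submodule.Quotient.mk x) = Submodule.Quotient.mk ((u.1 : Module.End F V) x) := rfl

theorem natCast_range_ne_zero {G H : Type*} [Group G] [Group H] (f : G →* H)
    (h : (Nat.card G : F) ≠ 0) : (Nat.card f.range : F) ≠ 0 := fun h0 => h <| by
  obtain ⟨c, hc⟩ := Subgroup.card_range_dvd f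
  rw [hc, Nat.cast_mul, h0, zero_mul]

theorem pow_natCard_val_eq_one {V : Type*} [AddCommGroup V] [Module F V]
    (U : Subgroup (Module.End F V)ˣ) (u : U) :
    (u.1 : Module.End F V) ^ Nat.card U = 1 := by
  rw [← Units.val_pow_eq_pow_val, ← SubmonoidClass.coe_pow, pow_card_eq_one', OneMemClass.coe_one,
    Units.val_one]

/-- An abelian group of invertible maps with order invertible in `F` is smaller than the space; if it
leaves a proper non-zero subspace invariant, the gap is at least two. -/
theorem card_abelian_bound {V : Type*} [AddCommGroup V] [Module F V] [Finite V] [Nontrivial V]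
    (U : Subgroup (Module.End F V)ˣ) (hc : ∀ a ∈ U, ∀ b ∈ U, a * b = b * a)
    (hU : (Nat.card U : F) ≠ 0) :
    Nat.card U + 1 ≤ Nat.card V ∧
      ∀ W : Submodule F V, W ≠ ⊥ → W ≠ ⊤ →
        (∀ u ∈ U, ∀ x ∈ W, (u : Module.End F V) x ∈ W) → Nat.card U + 2 ≤ Nat.card V := by
  induction h : Nat.card V using Nat.strong_induction_on generalizing V with
  | h k ih =>
    subst h
    have : Finite U := (Nat.card_ne_zero.mp fun h0 => hU (by rw [h0, Nat.cast_zero])).2
    have red : ∀ W : Submodule F V, W ≠ ⊥ → W ≠ ⊤ →
        (∀ u ∈ U, ∀ x ∈ W, (u : Module.End F V) x ∈ W) → Nat.card U + 2 ≤ Nat.card V := by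
      intro W hb ht hinv
      have : Nontrivial W := Submodule.nontrivial_iff_ne_bot.mpr hb
      have : Nontrivial (V ⧸ W) := Submodule.Quotient.nontrivial_iff.mpr ht
      have : Finite (V ⧸ W) := Finite.of_surjective _ W.mkQ_surjective
      have hcard := Submodule.card_eq_card_quotient_mul_card W
      have h2 : 1 < Nat.card W := Finite.one_lt_card
      have h3 : 1 < Nat.card (V ⧸ W) := Finite.one_lt_card
      have hlt1 : Nat.card W < Nat.card V := by rw [hcard]; nlinarith
      have hlt2 : Nat.card (V ⧸ W) < Nat.card V := by rw [hcard]; nlinarith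
      let ρ := restrictHom U W hinv
      let π := quotientHom U W hinv
      have comm : ∀ {H : Type _} [Group H] (f : U →* H), ∀ a ∈ f.range, ∀ b ∈ f.range, a * b = b * a := by
        rintro H _ f _ ⟨a, rfl⟩ _ ⟨b, rfl⟩
        rw [← map_mul, ← map_mul,
          show a * b = b * a from Subtype.ext (hc a.1 a.2 b.1 b.2)]
      have b1 := (ih _ hlt1 ρ.range (comm ρ) (natCast_range_ne_zero ρ hU) rfl).1
      have b2 := (ih _ hlt2 π.range (comm π) (natCast_range_ne_zero π hU) rfl).1
      have hinj : Function.Injective (fun u : U =>
          ((⟨ρ u, u, rfl⟩ : ρ.range), (⟨π u, u, rfl⟩ : π.range))) := by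
        intro a b hab
        simp only [Prod.mk.injEq, Subtype.mk.injEq] at hab
        have hρ : ρ a = ρ b := congrArg Subtype.val hab.1
        have hπ : π a = π b := congrArg Subtype.val hab.2
        suffices hab1 : a⁻¹ * b = 1 from inv_mul_eq_one.mp hab1
        have e1 : ρ (a⁻¹ * b) = 1 := by rw [map_mul, map_inv, hρ, inv_mul_cancel]
        have e2 : π (a⁻¹ * b) = 1 := by rw [map_mul, map_inv, hπ, inv_mul_cancel]
        refine Subtype.ext (Units.ext ?_)
        refine eq_one_of_unipotent hU (pow_natCard_val_eq_one U _) (W := W) (fun x hx => ?_) (fun x => ?_)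
        · have := restrictHom_apply U W hinv (a⁻¹ * b) ⟨x, hx⟩
          rw [show restrictHom U W hinv (a⁻¹ * b) = 1 from e1] at this
          exact this.symm
        · have := quotientHom_apply U W hinv (a⁻¹ * b) x
          rw [show quotientHom U W hinv (a⁻¹ * b) = 1 from e2] at this
          exact (Submodule.Quotient.eq W).mp this.symm
      have : Finite ρ.range := Finite.of_surjective _ ρ.rangeRestrict_surjective
      have : Finite π.range := Finite.of_surjective _ π.rangeRestrict_surjective
      have hle := Nat.card_le_card_of_injective _ hinj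
      rw [Nat.card_prod] at hle
      rw [hcard]
      nlinarith
    refine ⟨?_, red⟩
    by_cases hr : ∃ W : Submodule F V, W ≠ ⊥ ∧ W ≠ ⊤ ∧ ∀ u ∈ U, ∀ x ∈ W, (u : Module.End F V) x ∈ W
    · obtain ⟨W, hb, ht, hinv⟩ := hr
      have := red W hb ht hinv
      omega
    · obtain ⟨v, hv⟩ := exists_ne (0 : V)
      have hfree : ∀ u ∈ U, (u : Module.End F V) v = v → u = 1 := by
        intro u hu huv
        let E : Submodule F V := LinearMap.eqLocus (u : Module.End F V) 1
        by_cases hE : E = ⊤
        · refine Units.ext (LinearMap.ext fun x => ?_)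
          exact (hE ▸ Submodule.mem_top : x ∈ E)
        · refine (hr ⟨E, fun hb => hv ((Submodule.eq_bot_iff _).mp hb v huv), hE, fun w hw x hx => ?_⟩).elim
          show (u : Module.End F V) ((w : Module.End F V) x) = (w : Module.End F V) x
          have hx' : (u : Module.End F V) x = x := hx
          conv_rhs => rw [← hx']
          exact LinearMap.congr_fun (congrArg Units.val (hc u hu w hw)) x
      classical
      have hinj : Function.Injective (fun o : Option U => o.elim (0 : V) (fun u => (u.1 : Module.End F V) v)) := by
        have key : ∀ u : U, (u.1 : Module.End F V) v ≠ 0 := fun u h0 => hv (by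
          have := LinearMap.congr_fun u.1.inv_mul v
          rw [Module.End.mul_apply, h0, map_zero] at this
          exact this.symm)
        rintro (_ | a) (_ | b) hab
        · rfl
        · exact absurd hab.symm (key b)
        · exact absurd hab (key a)
        · simp only [Option.elim_some] at hab
          refine congrArg some (inv_mul_eq_one.mp (Subtype.ext (hfree _ (a⁻¹ * b).2 ?_)))
          simp only [Subgroup.coe_mul, Subgroup.coe_inv, Units.val_mul, Module.End.mul_apply, ← hab]
          exact LinearMap.congr_fun a.1.inv_mul v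
      have := Nat.card_le_card_of_injective _ hinj
      rwa [Finite.card_option] at this

end CfsgLib.H29
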