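import Mathlib

/-! Largest abelian subgroups of symmetric and alternating groups. -/

set_option autoImplicit false

namespace Cfsg.Agent.H29.AbelianPerm

open Equiv

/-! ### The arithmetic -/

def f : ℕ → ℕ
  | 0 => 1
  | 1 => 1
  | 2 => 2
  | 3 => 3
  | 4 => 4
  | (n + 5) => 3 * f (n + 2)

/-- maximal product of parts different from two -/
def h : ℕ → ℕ
  | 0 => 1
  | 1 => 1
  | 2 => 1
  | 3 => 3
  | 4 => 4
  | 5 => 5
  | 6 => 9
  | 7 => 12
  | 8 => 16
  | (n + 9) => 3 * h (n + 6)

theorem f_add_three {n : ℕ} (hn : 2 ≤ n) : f (n + 3) = 3 * f n := by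
  obtain ⟨m, rfl⟩ : ∃ m, n = m + 2 := ⟨n - 2, by omega⟩
  exact f.eq_6 m

theorem h_add_three {n : ℕ} (hn : 6 ≤ n) : h (n + 3) = 3 * h n := by
  obtain ⟨m, rfl⟩ : ∃ m, n = m + 6 := ⟨n - 6, by omega⟩
  exact h.eq_10 m

theorem f_small (s : ℕ) (hs : s ≤ 4) : ∀ m, s * f m ≤ f (m + s) := by
  intro m
  induction m using Nat.strong_induction_on with
  | _ m ih =>
    by_cases hm : m < 6
    · interval_cases s <;> interval_cases m <;> simp [f]
    · obtain ⟨j, rfl⟩ : ∃ j, m = j + 3 := ⟨m - 3, by omega⟩
      rw [f_add_three (by omega), show j + 3 + s = j + s + 3 by omega, f_add_three (by omega)]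
      have := ih j (by omega)
      linarith

theorem h_small (s : ℕ) (hs : s ≤ 5) (hs2 : s ≠ 2) : ∀ m, s * h m ≤ h (m + s) := by
  intro m
  induction m using Nat.strong_induction_on with
  | _ m ih =>
    by_cases hm : m < 9
    · interval_cases s <;> interval_cases m <;> simp [h] at hs2 ⊢
    · obtain ⟨j, rfl⟩ : ∃ j, m = j + 3 := ⟨m - 3, by omega⟩
      rw [h_add_three (by omega), show j + 3 + s = j + s + 3 by omega, h_add_three (by omega)]
      have := ih j (by omega)
      linarith

theorem f_part : ∀ s m : ℕ, s * f m ≤ f (m + s) := by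
  intro s
  induction s using Nat.strong_induction_on with
  | _ s ih =>
    intro m
    by_cases hs : s ≤ 4
    · exact f_small s hs m
    · calc s * f m ≤ 3 * ((s - 3) * f m) := by
            rw [← mul_assoc]; exact Nat.mul_le_mul_right _ (by omega)
      _ ≤ 3 * f (m + (s - 3)) := Nat.mul_le_mul_left _ (ih _ (by omega) m)
      _ ≤ f (m + s) := by
            rw [show m + s = m + (s - 3) + 3 by omega, f_add_three (by omega)]

theorem h_part : ∀ s : ℕ, s ≠ 2 → ∀ m : ℕ, s * h m ≤ h (m + s) := by
  intro s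
  induction s using Nat.strong_induction_on with
  | _ s ih =>
    intro hs2 m
    by_cases hs : s ≤ 5
    · exact h_small s hs hs2 m
    · calc s * h m ≤ 3 * ((s - 3) * h m) := by
            rw [← mul_assoc]; exact Nat.mul_le_mul_right _ (by omega)
      _ ≤ 3 * h (m + (s - 3)) := Nat.mul_le_mul_left _ (ih _ (by omega) (by omega) m)
      _ ≤ h (m + s) := by
            by_cases h6 : 6 ≤ m + (s - 3)
            · rw [show m + s = m + (s - 3) + 3 by omega, h_add_three h6]
            · rw [show m + s = m + (s - 3) + 3 by omega]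
              generalize hu : m + (s - 3) = u
              have h3 : 3 ≤ u := by omega
              have h5 : u ≤ 5 := by omega
              interval_cases u <;> simp [h]

theorem f_values (k : ℕ) : f (3 * (k + 1)) = 3 ^ (k + 1) ∧ f (3 * (k + 1) + 1) = 4 * 3 ^ k ∧
    f (3 * k + 2) = 2 * 3 ^ k := by
  induction k with
  | zero => simp [f]
  | succ k ih =>
    refine ⟨?_, ?_, ?_⟩
    · rw [show 3 * (k + 1 + 1) = 3 * (k + 1) + 3 by ring, f_add_three (by omega), ih.1]; ring
    · rw [show 3 * (k + 1 + 1) + 1 = 3 * (k + 1) + 1 + 3 by ring, f_add_three (by omega), ih.2.1]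
      ring
    · rw [show 3 * (k + 1) + 2 = 3 * k + 2 + 3 by ring, f_add_three (by omega), ih.2.2]; ring

theorem h_values (k : ℕ) : h (3 * (k + 2)) = 3 ^ (k + 2) ∧ h (3 * (k + 2) + 1) = 4 * 3 ^ (k + 1) ∧
    h (3 * (k + 2) + 2) = 16 * 3 ^ k := by
  induction k with
  | zero => simp [h]
  | succ k ih =>
    refine ⟨?_, ?_, ?_⟩
    · rw [show 3 * (k + 1 + 2) = 3 * (k + 2) + 3 by ring, h_add_three (by omega), ih.1]; ring
    · rw [show 3 * (k + 1 + 2) + 1 = 3 * (k + 2) + 1 + 3 by ring, h_add_three (by omega), ih.2.1]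
      ring
    · rw [show 3 * (k + 1 + 2) + 2 = 3 * (k + 2) + 2 + 3 by ring, h_add_three (by omega), ih.2.2]
      ring

/-! ### Upper bounds -/

section Upper

variable {α : Type} [Fintype α] [DecidableEq α]

open Classical in
noncomputable def orb (A : Subgroup (Perm α)) (a : α) : Finset α :=
  Finset.univ.filter fun x => ∃ c ∈ A, c a = x

theorem mem_orb {A : Subgroup (Perm α)} {a x : α} : x ∈ orb A a ↔ ∃ c ∈ A, c a = x := by
  simp [orb]

theorem mem_orb_self (A : Subgroup (Perm α)) (a : α) : a ∈ orb A a :=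
  mem_orb.mpr ⟨1, one_mem _, rfl⟩

theorem orb_invariant {A : Subgroup (Perm α)} {a x : α} {c : Perm α} (hc : c ∈ A) :
    c x ∉ orb A a ↔ x ∉ orb A a := by
  rw [not_iff_not, mem_orb, mem_orb]
  constructor
  · rintro ⟨d, hd, hdx⟩
    exact ⟨c⁻¹ * d, mul_mem (inv_mem hc) hd, by simp [hdx]⟩
  · rintro ⟨d, hd, rfl⟩
    exact ⟨c * d, mul_mem hc hd, rfl⟩

noncomputable def restr (A : Subgroup (Perm α)) (a : α) :
    A →* Perm {x // x ∉ orb A a} where
  toFun c := (c : Perm α).subtypePerm (p := fun x => x ∉ orb A a) fun x => orb_invariant c.2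
  map_one' := by ext x; simp
  map_mul' c d := by ext x; rfl

/-- One step: `|A| ≤ m · |restriction of A|`, `m` bounding the kernel. -/
theorem step (A : Subgroup (Perm α)) (hA : ∀ c ∈ A, ∀ d ∈ A, c * d = d * c) (a : α) (S : Finset α)
    (hS : ∀ k : A, restr A a k = 1 → (k : Perm α) a ∈ S) :
    Nat.card A ≤ S.card * Nat.card (restr A a).range ∧
      ∀ x ∈ (restr A a).range, ∀ y ∈ (restr A a).range, x * y = y * x := by
  refine ⟨?_, ?_⟩
  · have hk : Nat.card (restr A a).ker ≤ S.card := by
      have := Nat.card_le_card_of_injective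
        (fun k : (restr A a).ker => (⟨((k : A) : Perm α) a, hS k k.2⟩ : S)) ?_
      · simpa using this
      intro k k' hkk
      have he : ((k : A) : Perm α) a = ((k' : A) : Perm α) a := congrArg Subtype.val hkk
      apply Subtype.ext; apply Subtype.ext
      ext x
      by_cases hx : x ∈ orb A a
      · obtain ⟨c, hc, rfl⟩ := mem_orb.mp hx
        have e1 := congrArg (fun p : Perm α => p a) (hA _ (k : A).2 _ hc)
        have e2 := congrArg (fun p : Perm α => p a) (hA _ (k' : A).2 _ hc)
        simp only [Perm.mul_apply] at e1 e2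
        rw [e1, e2, he]
      · have f1 := congrArg (fun p : Perm {x // x ∉ orb A a} => (p ⟨x, hx⟩).1) (MonoidHom.mem_ker.mp k.2)
        have f2 := congrArg (fun p : Perm {x // x ∉ orb A a} => (p ⟨x, hx⟩).1) (MonoidHom.mem_ker.mp k'.2)
        simp [restr] at f1 f2
        rw [f1, f2]
    calc Nat.card A = Nat.card (restr A a).ker * (restr A a).ker.index :=
          (Subgroup.card_mul_index _).symm
    _ ≤ _ := by rw [Subgroup.index_ker]; exact Nat.mul_le_mul_right _ hk
  · rintro _ ⟨c, rfl⟩ _ ⟨d, rfl⟩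
    rw [← map_mul, ← map_mul]
    congr 1
    exact Subtype.ext (hA _ c.2 _ d.2)

theorem card_compl_orb (A : Subgroup (Perm α)) (a : α) :
    Fintype.card {x // x ∉ orb A a} + (orb A a).card = Fintype.card α := by
  rw [Fintype.card_subtype_compl, Fintype.card_coe]
  have := Finset.card_le_univ (orb A a)
  omega

end Upper

theorem card_le_f : ∀ (n : ℕ) (α : Type) [Fintype α] [DecidableEq α], Fintype.card α = n →
    ∀ A : Subgroup (Perm α), (∀ c ∈ A, ∀ d ∈ A, c * d = d * c) → Nat.card A ≤ f n := by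
  intro n
  induction n using Nat.strong_induction_on with
  | _ n ih =>
    intro α _ _ hn A hA
    rcases isEmpty_or_nonempty α with hα | ⟨⟨a⟩⟩
    · have : Subsingleton (Perm α) := ⟨fun p q => Equiv.ext fun x => (hα.false x).elim⟩
      have h0 : n = 0 := by rw [← hn]; exact Fintype.card_eq_zero
      subst h0
      simp [f, Nat.card_eq_one_iff_unique.mpr ⟨inferInstance, inferInstance⟩]
    · obtain ⟨hle, hc⟩ := step A hA a (orb A a) (fun k _ => mem_orb.mpr ⟨k, k.2, rfl⟩)
      have hcard := card_compl_orb A a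
      have hpos : 0 < (orb A a).card := Finset.card_pos.mpr ⟨a, mem_orb_self A a⟩
      refine hle.trans ((Nat.mul_le_mul_left _
        (ih _ (by omega) {x // x ∉ orb A a} rfl _ hc)).trans ?_)
      refine (f_part _ _).trans (le_of_eq ?_)
      congr 1; omega

theorem card_le_h : ∀ (n : ℕ) (α : Type) [Fintype α] [DecidableEq α], Fintype.card α = n →
    ∀ A : Subgroup (Perm α), (∀ c ∈ A, ∀ d ∈ A, c * d = d * c) → (∀ x, (orb A x).card ≠ 2) →
      Nat.card A ≤ h n := by
  intro n
  induction n using Nat.strong_induction_on with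
  | _ n ih =>
    intro α _ _ hn A hA h2
    rcases isEmpty_or_nonempty α with hα | ⟨⟨a⟩⟩
    · have : Subsingleton (Perm α) := ⟨fun p q => Equiv.ext fun x => (hα.false x).elim⟩
      have h0 : n = 0 := by rw [← hn]; exact Fintype.card_eq_zero
      subst h0
      simp [h, Nat.card_eq_one_iff_unique.mpr ⟨inferInstance, inferInstance⟩]
    · obtain ⟨hle, hc⟩ := step A hA a (orb A a) (fun k _ => mem_orb.mpr ⟨k, k.2, rfl⟩)
      have hcard := card_compl_orb A a
      have hpos : 0 < (orb A a).card := Finset.card_pos.mpr ⟨a, mem_orb_self A a⟩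
      have hinh : ∀ x, (orb (restr A a).range x).card ≠ 2 := by
        intro x
        rw [← Finset.card_map ⟨Subtype.val, Subtype.val_injective⟩]
        convert h2 x.1 using 2
        ext y
        simp only [Finset.mem_map, Function.Embedding.coeFn_mk, mem_orb]
        constructor
        · rintro ⟨z, ⟨_, ⟨c, rfl⟩, rfl⟩, rfl⟩
          exact ⟨c, c.2, by simp [restr]⟩
        · rintro ⟨c, hc', rfl⟩
          exact ⟨restr A a ⟨c, hc'⟩ x, ⟨_, ⟨⟨c, hc'⟩, rfl⟩, rfl⟩, by simp [restr]⟩
      refine hle.trans ((Nat.mul_le_mul_left _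
        (ih _ (by omega) {x // x ∉ orb A a} rfl _ hc hinh)).trans ?_)
      refine (h_part _ (h2 a) _).trans (le_of_eq ?_)
      congr 1; omega

theorem card_le_even (α : Type) [Fintype α] [DecidableEq α] (A : Subgroup (Perm α))
    (hA : ∀ c ∈ A, ∀ d ∈ A, c * d = d * c) (he : A ≤ alternatingGroup α) :
    Nat.card A ≤ max (h (Fintype.card α)) (f (Fintype.card α - 2)) := by
  by_cases h2 : ∃ a, (orb A a).card = 2
  · obtain ⟨a, ha⟩ := h2
    have hS : ∀ k : A, restr A a k = 1 → (k : Perm α) a ∈ ({a} : Finset α) := by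
      intro k hk
      rw [Finset.mem_singleton]
      by_contra hka
      have hO : orb A a = {a, (k : Perm α) a} := by
        refine (Finset.eq_of_subset_of_card_le ?_ ?_).symm
        · intro x hx
          rcases Finset.mem_insert.mp hx with rfl | hx
          · exact mem_orb_self A x
          · rw [Finset.mem_singleton.mp hx]; exact mem_orb.mpr ⟨k, k.2, rfl⟩
        · rw [ha, Finset.card_pair (Ne.symm hka)]
      have hfix : ∀ x, x ∉ orb A a → (k : Perm α) x = x := fun x hx => by
        have := congrArg (fun p : Perm {x // x ∉ orb A a} => (p ⟨x, hx⟩).1) hk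
        simpa [restr] using this
      have hb : (k : Perm α) ((k : Perm α) a) = a := by
        have hin : (k : Perm α) ((k : Perm α) a) ∈ orb A a :=
          mem_orb.mpr ⟨k.1 * k.1, mul_mem k.2 k.2, rfl⟩
        rw [hO] at hin
        rcases Finset.mem_insert.mp hin with h | h
        · exact h
        · exact absurd ((k : Perm α).injective (Finset.mem_singleton.mp h)) hka
      have hswap : (k : Perm α) = swap a ((k : Perm α) a) := by
        ext x
        by_cases hx : x ∈ orb A a
        · rw [hO] at hx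
          rcases Finset.mem_insert.mp hx with rfl | hx
          · simp
          · rw [Finset.mem_singleton.mp hx]; simp [hb]
        · rw [hfix x hx, swap_apply_of_ne_of_ne]
          · rintro rfl; exact hx (mem_orb_self A x)
          · rintro rfl; exact hx (mem_orb.mpr ⟨k, k.2, rfl⟩)
      have hs := Equiv.Perm.mem_alternatingGroup.mp (he k.2)
      rw [hswap, Equiv.Perm.sign_swap (Ne.symm hka)] at hs
      exact absurd hs (by decide)
    obtain ⟨hle, hc⟩ := step A hA a {a} hS
    have hcard := card_compl_orb A a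
    rw [ha] at hcard
    refine hle.trans (le_max_of_le_right ?_)
    simpa using card_le_f (Fintype.card α - 2) {x // x ∉ orb A a} (by omega) _ hc
  · push Not at h2
    exact le_max_of_le_left (card_le_h _ α rfl A hA h2)

/-! ### Constructions -/

/-- There is an abelian group of permutations of `n` points of order `c`, even if `ev`. -/
def Has (ev : Bool) (n c : ℕ) : Prop :=
  ∃ A : Subgroup (Perm (Fin n)), (∀ a ∈ A, ∀ b ∈ A, a * b = b * a) ∧
    (ev = true → A ≤ alternatingGroup (Fin n)) ∧ Nat.card A = c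

theorem has_zero (ev : Bool) : Has ev 0 1 := ⟨⊥, by simp, fun _ => bot_le, by simp⟩

theorem Has.weaken {ev : Bool} {n c : ℕ} (h : Has ev n c) : Has false n c :=
  let ⟨A, h1, _, h3⟩ := h
  ⟨A, h1, by simp, h3⟩

theorem Has.add {ev : Bool} {m n c d : ℕ} (hm : Has ev m c) (hn : Has ev n d) :
    Has ev (m + n) (c * d) := by
  obtain ⟨A, hA, hAe, rfl⟩ := hm
  obtain ⟨B, hB, hBe, rfl⟩ := hn
  let φ : Perm (Fin m) × Perm (Fin n) →* Perm (Fin (m + n)) :=
    finSumFinEquiv.permCongrHom.toMonoidHom.comp (Equiv.Perm.sumCongrHom (Fin m) (Fin n))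
  have hφ : Function.Injective φ :=
    finSumFinEquiv.permCongrHom.injective.comp Equiv.Perm.sumCongrHom_injective
  refine ⟨(A.prod B).map φ, ?_, fun hev => ?_, ?_⟩
  · rintro _ ⟨x, hx, rfl⟩ _ ⟨y, hy, rfl⟩
    rw [← map_mul, ← map_mul]
    congr 1
    exact Prod.ext (hA _ (Subgroup.mem_prod.mp hx).1 _ (Subgroup.mem_prod.mp hy).1)
      (hB _ (Subgroup.mem_prod.mp hx).2 _ (Subgroup.mem_prod.mp hy).2)
  · rintro _ ⟨x, hx, rfl⟩
    rw [Equiv.Perm.mem_alternatingGroup]
    have h1 := Equiv.Perm.mem_alternatingGroup.mp (hAe hev (Subgroup.mem_prod.mp hx).1)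
    have h2 := Equiv.Perm.mem_alternatingGroup.mp (hBe hev (Subgroup.mem_prod.mp hx).2)
    show Equiv.Perm.sign (finSumFinEquiv.permCongr (Equiv.sumCongr x.1 x.2)) = 1
    rw [Equiv.Perm.sign_permCongr, Equiv.Perm.sign_sumCongr, h1, h2, one_mul]
  · rw [← Nat.card_prod, ← Nat.card_congr ((A.prodEquiv B).toEquiv)]
    exact (Nat.card_congr ((A.prod B).equivMapOfInjective φ hφ).toEquiv).symm

theorem has_two : Has false 2 2 := by
  have hc : ∀ a b : Perm (Fin 2), a * b = b * a := by decide
  exact ⟨⊤, fun a _ b _ => hc a b, by simp,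
    by rw [Subgroup.card_top, Nat.card_perm, Nat.card_fin]; rfl⟩

theorem has_three (ev : Bool) : Has ev 3 3 := by
  refine ⟨alternatingGroup (Fin 3), ?_, fun _ => le_rfl, ?_⟩
  · intro a ha b hb
    rw [Equiv.Perm.mem_alternatingGroup] at ha hb
    revert a b; decide
  · rw [nat_card_alternatingGroup]; simp [Nat.factorial]

theorem has_four (ev : Bool) : Has ev 4 4 := by
  let s : Finset (Perm (Fin 4)) :=
    {1, swap 0 1 * swap 2 3, swap 0 2 * swap 1 3, swap 0 3 * swap 1 2}
  have hmul : ∀ a ∈ s, ∀ b ∈ s, a * b ∈ s ∧ a * b = b * a := by decide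
  have hinv : ∀ a ∈ s, a⁻¹ ∈ s := by decide
  let A : Subgroup (Perm (Fin 4)) :=
    { carrier := s
      mul_mem' := fun ha hb => (hmul _ ha _ hb).1
      one_mem' := by simp [s]
      inv_mem' := fun ha => hinv _ ha }
  refine ⟨A, fun a ha b hb => (hmul a ha b hb).2, fun _ a ha => ?_, ?_⟩
  · rw [Equiv.Perm.mem_alternatingGroup]
    have : ∀ a ∈ s, Equiv.Perm.sign a = 1 := by decide
    exact this a ha
  · show Nat.card (s : Set (Perm (Fin 4))) = 4
    simp only [Finset.coe_sort_coe, Nat.card_eq_fintype_card, Fintype.card_coe]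
    decide

theorem has_threes (ev : Bool) : ∀ k, Has ev (3 * k) (3 ^ k) := by
  intro k
  induction k with
  | zero => exact has_zero ev
  | succ k ih => rw [Nat.mul_succ, pow_succ]; exact ih.add (has_three ev)

end Cfsg.Agent.H29.AbelianPerm
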