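import Mathlib

set_option autoImplicit false

/-!
Maximality of normalisers in coprime direct products and central extensions.
-/

namespace CfsgLib.H29.NormMaxProduct

theorem isCoatom_comap {G H : Type*} [Group G] [Group H] {f : G →* H}
    (hf : Function.Surjective f) {M : Subgroup H} (hM : IsCoatom M) : IsCoatom (M.comap f) := by
  refine ⟨fun h => hM.1 ?_, fun L hL => ?_⟩
  · rw [← Subgroup.map_comap_eq_self_of_surjective hf M, h, Subgroup.map_top_of_surjective f hf]
  · have hk : f.ker ≤ L := (MonoidHom.ker_le_comap f M).trans hL.le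
    have h1 : M < L.map f := by
      refine lt_of_le_of_ne ?_ fun e => hL.ne ?_
      · rw [← Subgroup.map_comap_eq_self_of_surjective hf M]; exact Subgroup.map_mono hL.le
      · rw [e, Subgroup.comap_map_eq_self hk]
    rw [← Subgroup.comap_map_eq_self hk, hM.2 _ h1, Subgroup.comap_top]

theorem normalizer_prod_coprime {K S : Type*} [Group K] [CommGroup S] [Finite K] [Finite S]
    (hKS : (Nat.card K).Coprime (Nat.card S)) (H : Subgroup (K × S)) :
    Subgroup.normalizer (H : Set (K × S)) =
      (Subgroup.normalizer ((H.map (MonoidHom.fst K S)) : Set K)).comap (MonoidHom.fst K S) := by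
  obtain ⟨n, hn1, hn2⟩ := Nat.chineseRemainder hKS 1 0
  have hK : ∀ k : K, k ^ n = k := by
    intro k
    rw [← pow_mod_natCard, hn1, pow_mod_natCard, pow_one]
  have hS : ∀ s : S, s ^ n = 1 := by
    intro s
    rw [← pow_mod_natCard, hn2, pow_mod_natCard, pow_zero]
  have hsplit : ∀ k s, (k, s) ∈ H → (k, (1 : S)) ∈ H ∧ ((1 : K), s) ∈ H := by
    intro k s h
    have h1 : (k, (1 : S)) ∈ H := by
      have := H.pow_mem h n
      rwa [Prod.pow_mk, hK, hS] at this
    refine ⟨h1, ?_⟩
    have := H.mul_mem (H.inv_mem h1) h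
    simpa using this
  ext ⟨k, s⟩
  rw [Subgroup.mem_comap, Subgroup.mem_normalizer_iff, Subgroup.mem_normalizer_iff]
  constructor
  · intro h x
    constructor
    · rintro ⟨⟨a, b⟩, hab, rfl⟩
      exact ⟨_, (h (a, b)).mp hab, rfl⟩
    · rintro ⟨⟨a, b⟩, hab, e⟩
      simp only [MonoidHom.coe_fst] at e
      subst e
      refine ⟨(x, b), (h (x, b)).mpr ?_, rfl⟩
      have : (k, s) * (x, b) * (k, s)⁻¹ = (k * x * k⁻¹, b) := by
        simp [mul_comm s b]
      rw [this]; exact hab
  · rintro h ⟨x, b⟩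
    have e : (k, s) * (x, b) * (k, s)⁻¹ = (k * x * k⁻¹, b) := by simp [mul_comm s b]
    rw [e]
    constructor
    · intro hx
      obtain ⟨h1, h2⟩ := hsplit _ _ hx
      obtain ⟨⟨a, c⟩, hac, e'⟩ := (h x).mp ⟨(x, b), hx, rfl⟩
      simp only [MonoidHom.coe_fst] at e'
      subst e'
      have := H.mul_mem (hsplit _ _ hac).1 h2
      simpa using this
    · intro hx
      obtain ⟨h1, h2⟩ := hsplit _ _ hx
      obtain ⟨⟨a, c⟩, hac, e'⟩ := (h x).mpr ⟨_, hx, rfl⟩
      simp only [MonoidHom.coe_fst] at e'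
      subst e'
      have := H.mul_mem (hsplit _ _ hac).1 h2
      simpa using this

theorem isCoatom_of_central_ext {K P : Type*} [Group K] [Group P] [Finite K] {π : K →* P}
    (hπ : Function.Surjective π) (hc : π.ker ≤ Subgroup.center K)
    (hker : π.ker = ⊥ ∨ ((∀ x : K, x * x = 1 → x ∈ π.ker) ∧ Nat.card π.ker ≤ 2))
    (hP : ∀ X : Subgroup P, X ≠ ⊥ → X ≠ ⊤ → IsCoatom (Subgroup.normalizer (X : Set P)))
    {X : Subgroup K} (hX : ¬ X.Normal) : IsCoatom (Subgroup.normalizer (X : Set K)) := by
  classical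
  set Y := X.map π with hY
  have hY1 : Y ≠ ⊥ := fun h => hX ⟨fun x hx g => by
    have := Subgroup.mem_center_iff.mp (hc ((Subgroup.map_eq_bot_iff X).mp h hx)) g
    rw [this, mul_inv_cancel_right]; exact hx⟩
  have hY2 : Y ≠ ⊤ := by
    intro h
    refine hX ⟨fun x hx g => ?_⟩
    obtain ⟨u, hu, hug⟩ : π g ∈ Y := h ▸ Subgroup.mem_top _
    have hz : u⁻¹ * g ∈ π.ker := by rw [MonoidHom.mem_ker, map_mul, map_inv, hug, inv_mul_cancel]
    have hcom := Subgroup.mem_center_iff.mp (hc hz) x
    have e : g * x * g⁻¹ = u * x * u⁻¹ := by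
      calc g * x * g⁻¹ = u * ((u⁻¹ * g) * x) * (u⁻¹ * g)⁻¹ * u⁻¹ := by group
        _ = u * (x * (u⁻¹ * g)) * (u⁻¹ * g)⁻¹ * u⁻¹ := by rw [hcom]
        _ = u * x * u⁻¹ := by group
    rw [e]; exact X.mul_mem (X.mul_mem hu hx) (X.inv_mem hu)
  have hM := isCoatom_comap hπ (hP Y hY1 hY2)
  suffices h : Subgroup.normalizer (X : Set K) =
      (Subgroup.normalizer (Y : Set P)).comap π by rw [h]; exact hM
  refine le_antisymm (fun g hg => ?_) (fun g hg => ?_)
  · exact Subgroup.le_normalizer_map π ⟨g, hg, rfl⟩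
  · have key : ∀ h : K, π h ∈ Subgroup.normalizer (Y : Set P) → ∀ x ∈ X, h * x * h⁻¹ ∈ X := by
      intro h hh x hx
      have : π (h * x * h⁻¹) ∈ Y := by
        rw [map_mul, map_mul, map_inv]
        exact (Subgroup.mem_normalizer_iff.mp hh _).mp ⟨x, hx, rfl⟩
      obtain ⟨u, hu, hue⟩ := this
      have hz : u⁻¹ * (h * x * h⁻¹) ∈ π.ker := by
        rw [MonoidHom.mem_ker, map_mul, map_inv, hue, inv_mul_cancel]
      by_cases hle : π.ker ≤ X
      · have := X.mul_mem hu (hle hz)
        simpa [← mul_assoc] using this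
      rcases hker with hk | ⟨hinv, hcard⟩
      · exact absurd (hk ▸ bot_le) hle
      have hodd : Odd (Nat.card X) := by
        by_contra he
        rw [Nat.not_odd_iff_even, even_iff_two_dvd] at he
        obtain ⟨⟨v, hv⟩, hv2⟩ := exists_prime_orderOf_dvd_card' 2 he
        have hv1 : v ≠ 1 := by rintro rfl; simp at hv2
        have hvk : v ∈ π.ker := hinv v (by
          have := pow_orderOf_eq_one (⟨v, hv⟩ : X)
          rw [hv2, pow_two] at this
          exact congrArg Subtype.val this)
        refine hle fun w hw => ?_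
        by_contra hwX
        have hsub : ({1, v, w} : Set K) ⊆ (π.ker : Set K) := by
          rintro _ (rfl | rfl | rfl)
          exacts [one_mem _, hvk, hw]
        have h3 : ({1, v, w} : Set K).ncard = 3 := by
          rw [Set.ncard_eq_three]
          exact ⟨1, v, w, hv1.symm, fun e => hwX (e ▸ X.one_mem), fun e => hwX (e ▸ hv), rfl⟩
        have := Set.ncard_le_ncard hsub (Set.toFinite _)
        rw [h3, ← Nat.card_coe_set_eq] at this
        exact absurd (this.trans hcard) (by norm_num)
      set z := u⁻¹ * (h * x * h⁻¹) with hzdef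
      have hzz : z ^ 2 = 1 := by
        have hpos : 0 < Nat.card π.ker := Nat.card_pos
        have := pow_card_eq_one' (x := (⟨z, hz⟩ : π.ker))
        have h1 : z ^ Nat.card π.ker = 1 := congrArg Subtype.val this
        rcases (show Nat.card π.ker = 1 ∨ Nat.card π.ker = 2 by omega) with e | e <;> rw [e] at h1
        · rw [pow_one] at h1; rw [h1, one_pow]
        · exact h1
      have hpow : ∀ w ∈ X, w ^ Nat.card X = 1 := fun w hw =>
        congrArg Subtype.val (pow_card_eq_one' (x := (⟨w, hw⟩ : X)))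
      have h1 : (h * x * h⁻¹) ^ Nat.card X = 1 := by
        rw [conj_pow, hpow x hx, mul_one, mul_inv_cancel]
      have hcomm : Commute u z := Subgroup.mem_center_iff.mp (hc hz) u
      have huz : h * x * h⁻¹ = u * z := by rw [hzdef]; group
      rw [huz, hcomm.mul_pow, hpow u hu, one_mul] at h1
      obtain ⟨m, hm⟩ := hodd
      rw [hm, pow_succ, pow_mul, hzz, one_pow, one_mul] at h1
      rw [huz, h1, mul_one]
      exact hu
    rw [Subgroup.mem_normalizer_iff]
    intro x
    refine ⟨key g hg x, fun hx => ?_⟩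
    have := key g⁻¹ (by rw [map_inv]; exact inv_mem hg) _ hx
    simpa [mul_assoc] using this

end CfsgLib.H29.NormMaxProduct
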