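import Cfsg.Agent.H29.Solubilizer.Base
import Cfsg.Agent.H29.Solubilizer.Unipotent
import Cfsg.Agent.H29.Dickson.Intersect

set_option autoImplicit false

/-!
In `PSL₂(13)` every non-trivial proper subgroup is normal in a maximal subgroup.
-/

namespace CfsgLib.H29.NormMaxThirteen

open Matrix OnePoint MulAction CfsgLib.H29.Dickson CfsgLib.H29.Solubilizer
open scoped OnePoint

variable {F : Type*} [Field F] [Fintype F]

theorem alt_four_facts :
    (∀ x y : alternatingGroup (Fin 4), x * x = 1 → y * y = 1 → (x * y) * (x * y) = 1) ∧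
    Nat.card {x : alternatingGroup (Fin 4) // x * x = 1} = 4 := by
  refine ⟨by decide, ?_⟩
  rw [Nat.card_eq_fintype_card]; decide

/-- A maximal subgroup in which `X` is normal. -/
def Good (X : Subgroup (P2 F)) : Prop :=
  ∃ M : Subgroup (P2 F), MaxIn (W F) M ∧ X ≤ M ∧ ∀ g ∈ M, ∀ x ∈ X, g * x * g⁻¹ ∈ X

variable [CharP F 13] [Fact (Nat.Prime 13)]

theorem card_W13 (h13 : Fintype.card F = 13) : Nat.card (W F) = 1092 := by
  have h2 : (2 : F) ≠ 0 := fun h => by
    have := (CharP.cast_eq_zero_iff F 13 2).mp (by exact_mod_cast h)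
    omega
  have := card_W_two h2
  rw [h13, show (13 : ℕ) * (13 ^ 2 - 1) = 1092 * 2 by norm_num] at this
  exact Nat.eq_of_mul_eq_mul_right two_pos this

theorem good_of_T1 (h13 : Fintype.card F = 13) {X : Subgroup (P2 F)} (hXW : X ≤ W F)
    {a b : OnePoint (KK F)} (hab : a ≠ b) {c : P2 F} (hc1 : c ≠ 1) (hc : c ∈ T1 a b)
    (hle : X ≤ T1 a b) : Good X := by
  have := finite_P2 (F := F)
  obtain ⟨e, D, he⟩ : ∃ e, TorusData a b e ∧
      (e = Fintype.card F - 1 ∨ e = Fintype.card F + 1) :=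
    (torus_of_fixed hc1 hab hc.1 hc.2).elim (fun h => ⟨_, h, Or.inl rfl⟩) (fun h => ⟨_, h, Or.inr rfl⟩)
  refine ⟨T2 a b ⊓ W F, torus_max D (by omega) he (by omega) (by omega) (fun _ => by omega),
    le_inf (hle.trans (T1_le_T2 a b)) hXW, fun g hg x hx => ?_⟩
  have hxT := hle hx
  rcases hg.1 with h | h
  · have := isCyclic_T1 (F := F) hab
    let := IsCyclic.commGroup (α := T1 (F := F) a b)
    have hcomm : g * x = x * g := congrArg Subtype.val (mul_comm (⟨g, h⟩ : T1 a b) ⟨x, hxT⟩)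
    rw [hcomm, mul_inv_cancel_right]
    exact hx
  · have h1 : g * g = 1 := sq_eq_one_of_swap hab h.1 h.2
    have h2 : g * x * (g * x) = 1 := by
      refine sq_eq_one_of_swap hab ?_ ?_ <;> rw [map_mul, mul_smul]
      · rw [hxT.1, h.1]
      · rw [hxT.2, h.2]
    have h3 : g * x * g⁻¹ = x⁻¹ := by
      rw [inv_eq_of_mul_eq_one_right h1]
      exact eq_inv_of_mul_eq_one_left (by rw [mul_assoc]; exact h2)
    rw [h3]; exact X.inv_mem hx

theorem good_of_fix (h13 : Fintype.card F = 13) {X : Subgroup (P2 F)} (hXW : X ≤ W F)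
    (hX : X ≠ ⊥) {z : OnePoint F} (hz : ∀ g ∈ X, g • z = z) : Good X := by
  classical
  have := finite_P2 (F := F)
  obtain ⟨χ, hχ⟩ := exists_chi 13 (⊤ : Subgroup (P2 F)) z
  by_cases h : 13 ∣ Nat.card X
  · obtain ⟨u, hu⟩ := exists_prime_orderOf_dvd_card' 13 h
    have hu' : orderOf (u : P2 F) = 13 := by rw [Subgroup.orderOf_coe, hu]
    let U : Set (P2 F) := {g | g • z = z ∧ g ^ 13 = 1}
    have hUc : U.ncard = 13 := by
      rw [← Nat.card_coe_set_eq, ← h13, ← Nat.card_eq_fintype_card]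
      exact card_fix_pow 13 z
    have hsub : ((Subgroup.zpowers (u : P2 F) : Subgroup (P2 F)) : Set (P2 F)) ⊆ U := by
      rintro _ ⟨i, rfl⟩
      refine ⟨?_, ?_⟩
      · exact mem_stabilizer_iff.mp (Subgroup.zpow_mem _ (mem_stabilizer_iff.mpr (hz u u.2)) i)
      · rw [← zpow_natCast, ← _root_.zpow_mul, mul_comm, _root_.zpow_mul, zpow_natCast]
        rw [← hu', pow_orderOf_eq_one, _root_.one_zpow]
    have hU : U ⊆ (X : Set (P2 F)) := by
      rw [← Set.eq_of_subset_of_ncard_le hsub (by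
        rw [hUc, ← Nat.card_coe_set_eq]
        show 13 ≤ Nat.card ↥(Subgroup.zpowers (u : P2 F))
        rw [Nat.card_zpowers, hu']) (Set.toFinite _)]
      rintro _ ⟨i, rfl⟩
      exact X.zpow_mem u.2 i
    refine ⟨stabilizer (P2 F) z ⊓ W F, borel_max (by omega) z,
      fun g hg => ⟨mem_stabilizer_iff.mpr (hz g hg), hXW hg⟩, fun g hg x hx => ?_⟩
    let g' : stabilizer (⊤ : Subgroup (P2 F)) z := ⟨⟨g, trivial⟩, hg.1⟩
    let x' : stabilizer (⊤ : Subgroup (P2 F)) z := ⟨⟨x, trivial⟩, hz x hx⟩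
    have hcom : g * x * g⁻¹ * x⁻¹ ∈ U := by
      refine ⟨mem_stabilizer_iff.mp (Subgroup.mul_mem _ (Subgroup.mul_mem _
        (Subgroup.mul_mem _ hg.1 (mem_stabilizer_iff.mpr (hz x hx))) (Subgroup.inv_mem _ hg.1))
        (Subgroup.inv_mem _ (mem_stabilizer_iff.mpr (hz x hx)))), ?_⟩
      refine (hχ (g' * x' * g'⁻¹ * x'⁻¹)).mp ?_
      simp [mul_comm]
    have := X.mul_mem (hU hcom) hx
    simpa using this
  · -- cyclic, inside a torus
    let f : X →* Fˣ := χ.comp
      (((X.subtype.codRestrict (⊤ : Subgroup (P2 F)) fun _ => trivial)).codRestrict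
        (stabilizer (⊤ : Subgroup (P2 F)) z) fun g => hz g g.2)
    have hf : Function.Injective f := by
      rw [← MonoidHom.ker_eq_bot_iff, Subgroup.eq_bot_iff_forall]
      intro g hg
      have h13' : (g : P2 F) ^ 13 = 1 := (hχ _).mp hg
      rcases (Nat.dvd_prime (Fact.out : Nat.Prime 13)).mp (orderOf_dvd_of_pow_eq_one h13') with e | e
      · exact Subtype.ext (orderOf_eq_one_iff.mp e)
      · rw [Subgroup.orderOf_coe] at e
        exact absurd (e ▸ orderOf_dvd_natCard g) h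
    have : IsCyclic X := isCyclic_of_subgroup_isDomain ((Units.coeHom F).comp f)
      (fun a b e => hf (Units.ext e))
    obtain ⟨c, hc⟩ := IsCyclic.exists_generator (α := X)
    have hc1 : (c : P2 F) ≠ 1 := by
      intro e
      refine hX ((Subgroup.eq_bot_iff_forall _).mpr fun g hg => ?_)
      obtain ⟨i, hi⟩ := hc ⟨g, hg⟩
      have := congrArg Subtype.val hi
      simpa [e] using this.symm
    have hcp : (c : P2 F) ^ 13 ≠ 1 := by
      intro e
      have := orderOf_eq_prime e hc1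
      rw [Subgroup.orderOf_coe] at this
      exact h (this ▸ orderOf_dvd_natCard c)
    obtain ⟨a, b, e, he, D, hcT, hde, hW⟩ := orderOf_cases 13 hc1 hcp
    refine good_of_T1 h13 hXW D.ne hc1 hcT fun g hg => ?_
    obtain ⟨i, hi⟩ := hc ⟨g, hg⟩
    have := congrArg Subtype.val hi
    simp only [Subgroup.coe_zpow] at this
    exact this ▸ Subgroup.zpow_mem _ hcT i

theorem good_four (h13 : Fintype.card F = 13) {X : Subgroup (P2 F)} (hXW : X ≤ W F)
    (hX : Nat.card X = 4) : Good X := by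
  classical
  have := finite_P2 (F := F)
  have h2 : (2 : F) ≠ 0 := fun h => by
    have := (CharP.cast_eq_zero_iff F 13 2).mp (by exact_mod_cast h)
    omega
  obtain ⟨⟨N, hNW, ⟨eN⟩⟩, -⟩ := exists_A4_S4 (F := F) 13 h2
  -- the four subgroup of `N`
  let V₀ : Subgroup (alternatingGroup (Fin 4)) :=
    { carrier := {x | x * x = 1}
      mul_mem' := fun {a b} ha hb => alt_four_facts.1 a b ha hb
      one_mem' := one_mul 1
      inv_mem' := fun {a} ha => by
        show a⁻¹ * a⁻¹ = 1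
        rw [← _root_.mul_inv_rev, ha, inv_one] }
  let V : Subgroup (P2 F) := V₀.map (N.subtype.comp eN.symm.toMonoidHom)
  have hVN : V ≤ N := by rintro _ ⟨x, -, rfl⟩; exact (eN.symm x).2
  have hVc : Nat.card V = 4 := by
    rw [Subgroup.card_map_of_injective (f := N.subtype.comp eN.symm.toMonoidHom)
      (N.subtype_injective.comp eN.symm.injective)]
    exact alt_four_facts.2
  have hVn : ∀ g ∈ N, ∀ v ∈ V, g * v * g⁻¹ ∈ V := by
    rintro g hg _ ⟨v, hv, rfl⟩
    refine ⟨eN ⟨g, hg⟩ * v * (eN ⟨g, hg⟩)⁻¹, ?_, by simp⟩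
    show _ * _ = (1 : alternatingGroup (Fin 4))
    have hv' : v * v = 1 := hv
    calc eN ⟨g, hg⟩ * v * (eN ⟨g, hg⟩)⁻¹ * (eN ⟨g, hg⟩ * v * (eN ⟨g, hg⟩)⁻¹)
        = eN ⟨g, hg⟩ * (v * v) * (eN ⟨g, hg⟩)⁻¹ := by group
      _ = 1 := by rw [hv']; group
  -- Sylow
  have hfac : ∀ {A : Subgroup (P2 F)}, A ≤ W F → Nat.card A = 4 →
      Nat.card (A.subgroupOf (W F)) = 2 ^ (Nat.card (W F)).factorization 2 := by
    intro A hA hc
    rw [Nat.card_congr (Subgroup.subgroupOfEquivOfLe hA).toEquiv, hc, card_W13 h13]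
    have h : (1092 : ℕ).factorization 2 = 2 := by
      rw [show (1092 : ℕ) = 2 ^ 2 * 273 by norm_num, Nat.factorization_mul (by norm_num) (by norm_num),
        Finsupp.add_apply, Nat.Prime.factorization_pow Nat.prime_two, Finsupp.single_eq_same,
        Nat.factorization_eq_zero_of_not_dvd (by norm_num : ¬ 2 ∣ 273)]
    rw [h]; norm_num
  let PX : Sylow 2 (W F) := Sylow.ofCard _ (hfac hXW hX)
  let PV : Sylow 2 (W F) := Sylow.ofCard _ (hfac (hVN.trans hNW) hVc)
  obtain ⟨γ, hγ⟩ := MulAction.exists_smul_eq (W F) PV PX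
  have hconj : ∀ x : P2 F, x ∈ X ↔ (γ : P2 F)⁻¹ * x * γ ∈ V := by
    intro x
    have key : ∀ y : W F, y ∈ (PX : Subgroup (W F)) ↔ γ⁻¹ * y * γ ∈ (PV : Subgroup (W F)) := by
      intro y
      rw [← hγ, Sylow.coe_subgroup_smul, Subgroup.mem_pointwise_smul_iff_inv_smul_mem]
      simp [MulAut.smul_def]
    constructor
    · intro hx
      exact (key ⟨x, hXW hx⟩).mp hx
    · intro hx
      have hxW : x ∈ W F := by
        have := (W F).mul_mem ((W F).mul_mem γ.2 ((hVN.trans hNW) hx)) ((W F).inv_mem γ.2)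
        simpa [mul_assoc] using this
      exact (key ⟨x, hxW⟩).mpr hx
  let M := N.map (MulAut.conj (γ : P2 F)).toMonoidHom
  have hMW : M ≤ W F := by
    rintro _ ⟨g, hg, rfl⟩
    exact (W F).mul_mem ((W F).mul_mem γ.2 (hNW hg)) ((W F).inv_mem γ.2)
  refine ⟨M, A4_max 13 h13 (by norm_num) (by norm_num) (by norm_num) hMW
    ⟨(equivConj N (γ : P2 F)).symm.trans eN⟩, fun x hx => ?_, ?_⟩
  · exact ⟨(γ : P2 F)⁻¹ * x * γ, hVN ((hconj x).mp hx), by simp [mul_assoc]⟩
  · rintro _ ⟨g, hg, rfl⟩ x hx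
    rw [hconj]
    have := hVn g hg _ ((hconj x).mp hx)
    simpa [mul_assoc] using this

theorem good13 (h13 : Fintype.card F = 13) {X : Subgroup (P2 F)} (hXW : X ≤ W F)
    (hX : X ≠ ⊥) (hXne : X ≠ W F) : Good X := by
  classical
  have := finite_P2 (F := F)
  have hW := card_W13 h13
  have hdvd : Nat.card X ∣ 1092 := hW ▸ Subgroup.card_dvd_of_le hXW
  have hsub : ∀ (γ : P2 F) (L : Subfield F), (X.map (MulAut.conj γ).toMonoidHom = PL L ∨
      X.map (MulAut.conj γ).toMonoidHom = PS L) → False := by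
    intro γ L h
    obtain ⟨a, m, ha, hm, hL, hFa, -⟩ := subfield_card 13 L
    have h1 : a * m = 1 := by
      rw [h13, ← pow_mul] at hFa
      exact (Nat.pow_right_injective (le_of_lt (by norm_num : 2 < 13))
        (hFa.symm.trans (pow_one 13).symm))
    have ha1 : a = 1 := Nat.eq_one_of_mul_eq_one_right h1
    rw [ha1, pow_one] at hL
    have hc : 1092 ∣ Nat.card X := by
      have h' := Subgroup.card_map_of_injective (K := X) (f := (MulAut.conj γ).toMonoidHom)
        (MulAut.conj γ).injective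
      rcases h with h | h <;> rw [h] at h'
      · rw [← h', card_PL, hL]; norm_num
      · have h'' := card_PS_mul L
        rw [hL] at h''
        norm_num at h''
        omega
    exact hXne (Subgroup.eq_of_le_of_card_ge hXW
      (by rw [hW]; exact Nat.le_of_dvd Nat.card_pos hc))
  cases subKind 13 X with
  | borel z h => exact good_of_fix h13 hXW hX h
  | cyclic a b c hc hc1 hab hle hp => exact good_of_T1 h13 hXW hab hc1 (hle hc) hle
  | dih a b c hc hc1 hab hcab hle m hm hord hmc e =>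
    by_cases hm2 : m = 2
    · exact good_four h13 hXW (by omega)
    obtain ⟨k, D, hk⟩ : ∃ k, TorusData a b k ∧
        (k = Fintype.card F - 1 ∨ k = Fintype.card F + 1) :=
      (torus_of_fixed hc1 hab hcab.1 hcab.2).elim (fun h => ⟨_, h, Or.inl rfl⟩)
        (fun h => ⟨_, h, Or.inr rfl⟩)
    have hle' : X ≤ T2 a b ⊓ W F := le_inf hle hXW
    obtain ⟨h1, h2, -⟩ := D.special
    have hg : Nat.gcd 2 (Fintype.card F - 1) = 2 := by rw [h13]; norm_num
    rw [hg] at h1
    have hM : Nat.card ↥(T2 a b ⊓ W F) = k := by omega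
    have hd : 2 * m ∣ k := by rw [← hmc, ← hM]; exact Subgroup.card_dvd_of_le hle'
    have hrel : Nat.card X * (X.relIndex (T2 a b ⊓ W F)) = k := by
      rw [← hM, ← Subgroup.card_mul_index (X.subgroupOf (T2 a b ⊓ W F)),
        Nat.card_congr (Subgroup.subgroupOfEquivOfLe hle').toEquiv]
      rfl
    have hidx : X.relIndex (T2 a b ⊓ W F) = 1 ∨ X.relIndex (T2 a b ⊓ W F) = 2 := by
      have h3 : 6 ≤ 2 * m := by omega
      rw [hmc] at hrel
      have hr0 : X.relIndex (T2 a b ⊓ W F) ≠ 0 := by intro h; rw [h] at hrel; omega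
      have h4 : 6 * X.relIndex (T2 a b ⊓ W F) ≤ k := hrel ▸ Nat.mul_le_mul_right _ h3
      omega
    refine ⟨T2 a b ⊓ W F, torus_max D (by omega) hk (by omega) (by omega) (fun _ => by omega),
      hle', fun g hg x hx => ?_⟩
    have hn : (X.subgroupOf (T2 a b ⊓ W F)).Normal := by
      rcases hidx with h | h
      · have : X.subgroupOf (T2 a b ⊓ W F) = ⊤ := Subgroup.index_eq_one.mp h
        rw [this]; infer_instance
      · exact Subgroup.normal_of_index_eq_two h
    exact hn.conj_mem ⟨x, hle' hx⟩ hx ⟨g, hg⟩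
  | a4 hc hp e =>
    exact ⟨X, A4_max 13 h13 (by norm_num) (by norm_num) (by norm_num) hXW e, le_rfl,
      fun g hg x hx => X.mul_mem (X.mul_mem hg hx) (X.inv_mem hg)⟩
  | s4 hc hp e => rw [hc] at hdvd; norm_num at hdvd
  | a5 hc hp e => rw [hc] at hdvd; norm_num at hdvd
  | pgl γ L h => exact (hsub γ L (Or.inl h)).elim
  | psl γ L h => exact (hsub γ L (Or.inr h)).elim

theorem isCoatom_normalizer_psl (h13 : Fintype.card F = 13)
    {X : Subgroup (Matrix.ProjectiveSpecialLinearGroup (Fin 2) F)} (hX : X ≠ ⊥) (hXt : X ≠ ⊤) :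
    IsCoatom (Subgroup.normalizer (X : Set (Matrix.ProjectiveSpecialLinearGroup (Fin 2) F))) := by
  have hinj := Matrix.ProjectiveSpecialLinearGroup.toPGL_injective (n := Fin 2) (R := F)
  have := finite_P2 (F := F)
  set f := Matrix.ProjectiveSpecialLinearGroup.toPGL (n := Fin 2) (R := F)
  have hle : X.map f ≤ W F := by rw [← range_toPGL]; exact Subgroup.map_le_range f X
  obtain ⟨M, hM, hXM, hn⟩ := good13 h13 hle
    (by rw [Ne, Subgroup.map_eq_bot_iff_of_injective _ hinj]; exact hX)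
    (fun h => hXt (Subgroup.map_injective hinj (h.trans W_eq_map)))
  obtain ⟨hs, -, -⟩ := not_solvable_PSL (K := F) (by omega)
  set N := Subgroup.normalizer (X : Set (Matrix.ProjectiveSpecialLinearGroup (Fin 2) F))
  have hNt : N ≠ ⊤ := fun h => by
    rcases hs.eq_bot_or_eq_top_of_normal X (Subgroup.normalizer_eq_top_iff.mp h) with h' | h'
    · exact hX h'
    · exact hXt h'
  have hMN : M ≤ N.map f := by
    intro m hm
    obtain ⟨g, rfl⟩ : m ∈ f.range := by rw [range_toPGL]; exact hM.lt.le hm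
    refine Subgroup.mem_map_of_mem _ (Subgroup.mem_normalizer_iff.mpr fun x => ?_)
    constructor
    · intro hx
      exact (Subgroup.mem_map_iff_mem hinj).mp (by
        rw [map_mul, map_mul, map_inv]; exact hn _ hm _ (Subgroup.mem_map_of_mem _ hx))
    · intro hx
      have := hn _ (M.inv_mem hm) _ (Subgroup.mem_map_of_mem f hx)
      rw [inv_inv, map_mul, map_mul, map_inv] at this
      exact (Subgroup.mem_map_iff_mem hinj).mp (by simpa [mul_assoc] using this)
  have hNW : N.map f ≠ W F := fun h => hNt (Subgroup.map_injective hinj (h.trans W_eq_map))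
  have hMeq : M = N.map f := hM.eq_of_le hMN (by rw [← range_toPGL]; exact Subgroup.map_le_range f N) hNW
  refine ⟨hNt, fun L hL => Subgroup.map_injective hinj ?_⟩
  rw [hM.eq (L.map f) (hMeq ▸ (Subgroup.map_lt_map_iff_of_injective hinj).mpr hL)
    (by rw [← range_toPGL]; exact Subgroup.map_le_range f L), ← W_eq_map]

end CfsgLib.H29.NormMaxThirteen
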