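import Mathlib

set_option autoImplicit false
open Pointwise

namespace Cfsg.Agent.H29.PElemCover

variable {G : Type*} [Group G] [Finite G] (p : ℕ) [Fact p.Prime]

/-- The `p`-elements of a subgroup. -/
def pel (H : Subgroup G) : Set G := {g | g ∈ H ∧ ∃ k : ℕ, orderOf g = p ^ k}

/-- A `p`-group is not the union of at most `p` proper subgroups. -/
theorem pgroup_le_of_cover (P : Subgroup G) (hP : IsPGroup p P) (s : Finset (Subgroup G))
    (hs : s.card ≤ p) (hc : ∀ x ∈ P, ∃ M ∈ s, x ∈ M) : ∃ M ∈ s, P ≤ M := by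
  classical
  by_contra! hne
  have := Fintype.ofFinite G
  obtain ⟨a, ha⟩ := IsPGroup.iff_card.1 hP
  have hp := Fact.out (p := p.Prime)
  let PF : Finset G := Finset.univ.filter (· ∈ P)
  have hPF : PF.card = p ^ a := by
    rw [← ha, Nat.card_eq_fintype_card, Fintype.card_subtype]
  have hsub : PF.erase 1 ⊆ s.biUnion (fun M => (Finset.univ.filter (· ∈ M ⊓ P)).erase 1) := by
    intro x hx
    simp only [PF, Finset.mem_erase, Finset.mem_filter, Finset.mem_univ, true_and] at hx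
    obtain ⟨M, hM, hxM⟩ := hc x hx.2
    exact Finset.mem_biUnion.2 ⟨M, hM, by simp [hx.1, hxM, hx.2]⟩
  have h1 : (PF.erase 1).card = p ^ a - 1 := by
    rw [Finset.card_erase_of_mem (by simp [PF]), hPF]
  have h2 : ∀ M ∈ s, ((Finset.univ.filter (· ∈ M ⊓ P)).erase 1).card + 1 ≤ p ^ (a - 1) ∧ 1 ≤ a := by
    intro M hM
    rw [Finset.card_erase_of_mem (Finset.mem_filter.2 ⟨Finset.mem_univ _, one_mem _⟩)]
    have hc' : (Finset.univ.filter (· ∈ M ⊓ P)).card = Nat.card ↥(M ⊓ P) := by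
      rw [Nat.card_eq_fintype_card, Fintype.card_subtype]
    rw [hc']
    obtain ⟨b, hb⟩ := IsPGroup.iff_card.1 (hP.to_le (inf_le_right : M ⊓ P ≤ P))
    have hlt : b < a := by
      by_contra! hab
      apply hne M hM
      have he : M ⊓ P = P := Subgroup.eq_of_le_of_card_ge inf_le_right (by
        rw [ha, hb]; exact Nat.pow_le_pow_right hp.pos hab)
      exact he ▸ inf_le_left
    have hle : p ^ b ≤ p ^ (a - 1) := Nat.pow_le_pow_right hp.pos (by omega)
    have : 1 ≤ p ^ b := Nat.one_le_pow _ _ hp.pos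
    rw [hb]
    omega
  obtain ⟨M, hM, -⟩ := hc 1 (one_mem P)
  have ha1 := (h2 M hM).2
  have h3 : (PF.erase 1).card ≤ s.card * (p ^ (a - 1) - 1) := by
    refine (Finset.card_le_card hsub).trans (Finset.card_biUnion_le_card_mul _ _ _ ?_)
    intro M hM; have := (h2 M hM).1; omega
  have h4 : s.card * (p ^ (a - 1) - 1) ≤ p * (p ^ (a - 1) - 1) := Nat.mul_le_mul_right _ hs
  have h5 : p * (p ^ (a - 1) - 1) + p = p ^ a := by
    have : 1 ≤ p ^ (a - 1) := Nat.one_le_pow _ _ hp.pos
    conv_rhs => rw [show a = a - 1 + 1 by omega, pow_succ]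
    rw [Nat.mul_sub, mul_one, mul_comm (p ^ (a - 1)) p]
    have : p ≤ p * p ^ (a - 1) := Nat.le_mul_of_pos_right _ (by omega)
    omega
  have := hp.two_le
  omega

theorem main {ι : Type*} [Fintype ι] : ∀ (n : ℕ) (H : Subgroup G), Nat.card H = n →
    Subgroup.closure (pel p H) = H → ∀ L : ι → Subgroup G, (∀ i, ¬ H ≤ L i) →
    (∀ g ∈ pel p H, ∃ i, g ∈ L i) → p + 1 ≤ Fintype.card ι := by
  classical
  intro n
  induction n using Nat.strong_induction_on with
  | _ n IH =>
  intro H hn hH L hL hcov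
  by_contra! hcard
  have hp := Fact.out (p := p.Prime)
  let PP : Subgroup G → Prop := fun M => M < H ∧ Subgroup.closure (pel p M) = M
  have hstep : ∀ M, PP M → ∃ i, M ≤ L i := by
    intro M hM
    by_contra! hne
    have := IH (Nat.card M) (hn ▸ Set.ncard_lt_ncard (s := (M : Set G)) hM.1 (Set.toFinite _))
      M rfl hM.2 L hne (fun g hg => hcov g ⟨hM.1.le hg.1, hg.2⟩)
    omega
  let M' : ι → Subgroup G := fun i => Subgroup.closure (pel p (L i ⊓ H))
  have hM'le : ∀ i, M' i ≤ L i ⊓ H := fun i => (Subgroup.closure_le _).2 (fun g hg => hg.1)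
  have hM'P : ∀ i, PP (M' i) := fun i => ⟨lt_of_le_of_lt (hM'le i)
      (lt_of_le_of_ne inf_le_right (fun h => hL i (h ▸ inf_le_left))),
    le_antisymm ((Subgroup.closure_le _).2 fun g hg => hg.1)
      (Subgroup.closure_mono fun g hg => ⟨Subgroup.subset_closure hg, hg.2⟩)⟩
  let S : Finset (Subgroup G) := (Finset.univ.image M').filter (fun M => Maximal PP M)
  have hS : ∀ M, M ∈ S ↔ Maximal PP M := by
    intro M
    refine ⟨fun h => (Finset.mem_filter.1 h).2, fun h => Finset.mem_filter.2 ⟨?_, h⟩⟩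
    obtain ⟨i, hi⟩ := hstep M h.1
    refine Finset.mem_image.2 ⟨i, Finset.mem_univ _, ?_⟩
    have hle : M ≤ M' i := by
      conv_lhs => rw [← h.1.2]
      exact Subgroup.closure_mono fun g hg => ⟨⟨hi hg.1, h.1.1.le hg.1⟩, hg.2⟩
    exact le_antisymm (h.2 (hM'P i) hle) hle
  have hScard : S.card ≤ p :=
    ((Finset.card_filter_le _ _).trans Finset.card_image_le).trans
      (by rw [Finset.card_univ]; omega)
  have hmem : ∀ g ∈ pel p H, ∃ M ∈ S, g ∈ M := by
    intro g hg
    obtain ⟨i, hi⟩ := hcov g hg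
    have hgM : g ∈ M' i := Subgroup.subset_closure ⟨⟨hi, hg.1⟩, hg.2⟩
    obtain ⟨M, hle, hM⟩ := Finite.exists_le_maximal (hM'P i)
    exact ⟨M, (hS M).2 hM, hle hgM⟩
  -- invariance under conjugation by `H`
  have hconj : ∀ h ∈ H, ∀ M, PP M → PP (MulAut.conj h • M) := by
    intro h hh M hM
    have hHfix : MulAut.conj h • H = H := Subgroup.conj_smul_eq_self_of_mem hh
    refine ⟨?_, ?_⟩
    · refine lt_of_le_of_ne (hHfix ▸ Subgroup.pointwise_smul_le_pointwise_smul_iff.2 hM.1.le) ?_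
      intro he
      rw [← hHfix] at he
      exact hM.1.ne (MulAction.injective (MulAut.conj h) he)
    · apply le_antisymm ((Subgroup.closure_le _).2 fun g hg => hg.1)
      conv_lhs => rw [← hM.2, Subgroup.smul_closure]
      apply Subgroup.closure_mono
      rintro _ ⟨g, hg, rfl⟩
      refine ⟨Subgroup.smul_mem_pointwise_smul _ _ _ hg.1, ?_⟩
      obtain ⟨k, hk⟩ := hg.2
      exact ⟨k, hk ▸ orderOf_injective (MulAut.conj h).toMonoidHom (MulAut.conj h).injective g⟩
  have hSconj : ∀ h ∈ H, ∀ M ∈ S, MulAut.conj h • M ∈ S := by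
    intro h hh M hM
    rw [hS] at hM ⊢
    refine ⟨hconj h hh M hM.1, fun N hN hle => ?_⟩
    have h1 := hconj h⁻¹ (H.inv_mem hh) N hN
    rw [map_inv] at h1
    have h2 : M ≤ (MulAut.conj h)⁻¹ • N :=
      Subgroup.pointwise_smul_subset_iff.1 hle
    exact Subgroup.subset_pointwise_smul_iff.2 (hM.2 h1 h2)
  -- every `p`-element fixes every member of `S`
  have hfix : ∀ g ∈ pel p H, ∀ M ∈ S, MulAut.conj g • M = M := by
    intro g hg M hM
    letI : MulAction (Subgroup.zpowers g) (Subgroup G) :=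
      MulAction.compHom _ ((MulAut.conj (G := G)).comp (Subgroup.zpowers g).subtype)
    obtain ⟨k, hk⟩ := hg.2
    have hZ : IsPGroup p (Subgroup.zpowers g) := IsPGroup.of_card (by rw [Nat.card_zpowers, hk])
    obtain ⟨M0, hM0, hgM0⟩ := hmem g hg
    by_contra hne
    have hneM0 : M ≠ M0 := fun h =>
      hne (h ▸ Subgroup.conj_smul_eq_self_of_mem hgM0)
    obtain ⟨m, hm⟩ := hZ.card_orbit M
    have hsub : MulAction.orbit (Subgroup.zpowers g) M ⊆ ((S.erase M0 : Finset _) : Set _) := by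
      rintro _ ⟨⟨x, hx⟩, rfl⟩
      change MulAut.conj x • M ∈ _
      have hxH : x ∈ H := (Subgroup.zpowers_le.2 hg.1) hx
      refine Finset.mem_coe.2 (Finset.mem_erase.2 ⟨?_, hSconj x hxH M hM⟩)
      intro he
      apply hneM0
      have hxM0 : MulAut.conj x • M0 = M0 :=
        Subgroup.conj_smul_eq_self_of_mem ((Subgroup.zpowers_le.2 hgM0) hx)
      exact MulAction.injective (MulAut.conj x) (he.trans hxM0.symm)
    have hle : Nat.card (MulAction.orbit (Subgroup.zpowers g) M) < p := by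
      have h1 := Nat.card_mono (Finset.finite_toSet _) hsub
      rw [Nat.card_coe_set_eq, Nat.card_coe_set_eq, Set.ncard_coe_finset,
        Finset.card_erase_of_mem hM0] at h1
      have := Finset.card_pos.2 ⟨M0, hM0⟩
      rw [Nat.card_coe_set_eq]
      omega
    have hm0 : m = 0 := by
      by_contra hm0
      have : p ≤ p ^ m := Nat.le_self_pow hm0 p
      omega
    rw [hm0, pow_zero, Nat.card_coe_set_eq, Set.ncard_eq_one] at hm
    obtain ⟨a, ha⟩ := hm
    have h1 : M ∈ MulAction.orbit (Subgroup.zpowers g) M := MulAction.mem_orbit_self M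
    have h2 : MulAut.conj g • M ∈ MulAction.orbit (Subgroup.zpowers g) M :=
      ⟨⟨g, Subgroup.mem_zpowers g⟩, rfl⟩
    rw [ha, Set.mem_singleton_iff] at h1 h2
    exact hne (h2.trans h1.symm)
  have hnorm : ∀ h ∈ H, ∀ M ∈ S, MulAut.conj h • M = M := by
    intro h hh M hM
    rw [← hH] at hh
    have hle : Subgroup.closure (pel p H) ≤
        (MulAction.stabilizer (MulAut G) M).comap MulAut.conj :=
      (Subgroup.closure_le _).2 fun g hg => MulAction.mem_stabilizer_iff.2 (hfix g hg M hM)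
    exact MulAction.mem_stabilizer_iff.1 (hle hh)
  -- a Sylow subgroup of `H`
  obtain ⟨P⟩ : Nonempty (Sylow p H) := inferInstance
  obtain ⟨M, hM, hPM⟩ := pgroup_le_of_cover p ((P : Subgroup H).map H.subtype)
    (P.isPGroup'.map _) S hScard (by
      rintro _ ⟨x, hx, rfl⟩
      obtain ⟨k, hk⟩ := IsPGroup.iff_orderOf.1 P.isPGroup' ⟨x, hx⟩
      refine hmem _ ⟨x.2, k, ?_⟩
      rw [Subgroup.orderOf_mk] at hk
      rw [← hk]; exact Subgroup.orderOf_coe x)
  have hall : pel p H ⊆ (M : Set G) := by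
    rintro y ⟨hyH, k, hk⟩
    obtain ⟨Q, hQ⟩ := (IsPGroup.of_card (n := k)
      (by rw [Nat.card_zpowers, Subgroup.orderOf_mk, hk]) :
        IsPGroup p (Subgroup.zpowers (⟨y, hyH⟩ : H))).exists_le_sylow
    obtain ⟨h, rfl⟩ := MulAction.exists_smul_eq H P Q
    have hy := hQ (Subgroup.mem_zpowers _)
    rw [Sylow.coe_subgroup_smul, Subgroup.mem_pointwise_smul_iff_inv_smul_mem] at hy
    have h1 := hPM ⟨_, hy, rfl⟩
    rw [SetLike.mem_coe, ← hnorm h.1 h.2 M hM, Subgroup.mem_pointwise_smul_iff_inv_smul_mem]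
    simpa [mul_assoc] using h1
  have hMlt := ((hS M).1 hM).1.1
  exact hMlt.not_ge (hH ▸ (Subgroup.closure_le M).2 hall)

end Cfsg.Agent.H29.PElemCover
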