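import Mathlib

/-!
A small stabilizer-chain checker for groups of permutations of `Fin n`.
-/

set_option autoImplicit false

namespace CfsgLib.H29.PermChain

variable {n : ℕ}

/-- The table of a permutation. -/
def tab (g : Equiv.Perm (Fin n)) : List ℕ := (List.finRange n).map fun i => (g i).val

/-- Composition of tables. -/
def comp (a b : List ℕ) : List ℕ := b.map fun i => a.getD i 0

theorem getD_tab (g : Equiv.Perm (Fin n)) (i : Fin n) : (tab g).getD i.val 0 = (g i).val := by
  simp [tab, List.getD_eq_getElem]

theorem tab_injective : Function.Injective (tab (n := n)) := fun g h e => Equiv.ext fun i => Fin.ext (by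
  rw [← getD_tab g i, e, getD_tab h i])

theorem comp_tab (g h : Equiv.Perm (Fin n)) : comp (tab g) (tab h) = tab (g * h) := by
  simp only [comp, tab, List.map_map]
  refine List.map_congr_left fun i _ => ?_
  simp only [Function.comp_apply]
  rw [show ((List.finRange n).map fun i => (g i).val) = tab g from rfl, getD_tab,
    Equiv.Perm.mul_apply]

/-- The identity table. -/
def idt (n : ℕ) : List ℕ := List.range n

theorem tab_one : tab (1 : Equiv.Perm (Fin n)) = idt n := by
  simp [tab, idt, List.map_coe_finRange_eq_range]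

/-- One round of enlarging a set of orbit representatives. -/
def grow (gens : List (List ℕ)) (b : ℕ) (acc : List (List ℕ)) : List (List ℕ) :=
  (acc.flatMap fun t => gens.map fun s => comp s t).foldl
    (fun a u => if a.any fun w => w.getD b 0 == u.getD b 0 then a else a ++ [u]) acc

/-- Orbit representatives. -/
def orb (n : ℕ) (gens : List (List ℕ)) (b : ℕ) : ℕ → List (List ℕ)
  | 0 => [idt n]
  | k + 1 => grow gens b (orb n gens b k)

/-- A table of an element of a group. -/
def IsTab (H : Subgroup (Equiv.Perm (Fin n))) (t : List ℕ) : Prop := ∃ g ∈ H, tab g = t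

theorem orb_isTab {H : Subgroup (Equiv.Perm (Fin n))} {gens : List (List ℕ)}
    (hg : ∀ s ∈ gens, IsTab H s) (b : ℕ) : ∀ k, ∀ t ∈ orb n gens b k, IsTab H t
  | 0, t, ht => by
    rw [orb, List.mem_singleton] at ht
    exact ⟨1, one_mem _, ht ▸ tab_one⟩
  | k + 1, t, ht => by
    have key : ∀ (l a : List (List ℕ)), (∀ x ∈ a, IsTab H x) → (∀ x ∈ l, IsTab H x) →
        ∀ x ∈ l.foldl (fun a u => if a.any fun w => w.getD b 0 == u.getD b 0 then a else a ++ [u]) a,
          IsTab H x := by
      intro l
      induction l with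
      | nil => exact fun a ha _ => ha
      | cons u l ih =>
        intro a ha hl
        refine ih _ ?_ fun x hx => hl x (List.mem_cons_of_mem _ hx)
        dsimp only
        split
        · exact ha
        · intro x hx
          rcases List.mem_append.mp hx with hx | hx
          · exact ha x hx
          · rw [List.mem_singleton] at hx
            exact hx ▸ hl u List.mem_cons_self
    refine key _ _ (orb_isTab hg b k) ?_ t ht
    intro x hx
    obtain ⟨y, hy, hx⟩ := List.mem_flatMap.mp hx
    obtain ⟨s, hs, rfl⟩ := List.mem_map.mp hx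
    obtain ⟨g, hgH, rfl⟩ := hg s hs
    obtain ⟨h, hhH, rfl⟩ := orb_isTab hg b k y hy
    exact ⟨g * h, mul_mem hgH hhH, (comp_tab g h).symm⟩

/-- A level: base point, generators, number of growing rounds. -/
structure Lev (n : ℕ) where
  pt : Fin n
  gens : List (Equiv.Perm (Fin n))
  rounds : ℕ

/-- The representatives of a level. -/
def reps (L : Lev n) : List (List ℕ) := orb n (L.gens.map tab) L.pt.val L.rounds

/-- The group of a level. -/
def grp (L : Lev n) : Subgroup (Equiv.Perm (Fin n)) := Subgroup.closure {g | g ∈ L.gens}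

/-- The group at the head of a chain. -/
def head : List (Lev n) → Subgroup (Equiv.Perm (Fin n))
  | [] => ⊥
  | L :: _ => grp L

/-- An inverse table. -/
def invt (t : List ℕ) : List ℕ := (List.range t.length).map fun i => t.findIdx fun x => x == i

/-- Sifting. -/
def sift : List (List (List ℕ) × ℕ) → List ℕ → Bool
  | [], g => g == idt g.length && g.length == n
  | (T, b) :: r, g =>
    match T.find? fun t => t.getD b 0 == g.getD b 0 with
    | none => false
    | some t => comp t (comp (invt t) g) == g && sift r (comp (invt t) g)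

/-- The data for sifting. -/
def data (C : List (Lev n)) : List (List (List ℕ) × ℕ) := C.map fun L => (reps L, L.pt.val)

/-- The test of a chain. -/
def ok : List (Lev n) → Bool
  | [] => true
  | L :: r =>
    let R := reps L
    let D := data (L :: r)
    (L.gens.all fun s => R.all fun t => sift (n := n) D (comp (tab s) t)) &&
    (R.map fun t => t.getD L.pt.val 0).Nodup &&
    (match r with
      | [] => true
      | L' :: _ => L'.gens.all fun g => L.gens.contains g && g L.pt == L.pt) &&
    R.contains (idt n) && ok r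

/-- Products along the chain. -/
def Prod' : List (Lev n) → Equiv.Perm (Fin n) → Prop
  | [], g => g = 1
  | L :: r, g => ∃ t h, tab t ∈ reps L ∧ Prod' r h ∧ g = t * h

theorem isTab_reps (L : Lev n) : ∀ t ∈ reps L, IsTab (grp L) t :=
  orb_isTab (fun s hs => by
    obtain ⟨g, hg, rfl⟩ := List.mem_map.mp hs
    exact ⟨g, Subgroup.subset_closure hg, rfl⟩) _ _

theorem invt_tab (T : Equiv.Perm (Fin n)) : invt (tab T) = tab T⁻¹ := by
  refine List.ext_getElem (by simp [invt, tab]) fun i h1 h2 => ?_
  simp only [tab, List.getElem_map, List.getElem_finRange, invt, List.length_map,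
    List.length_finRange, List.getElem_range]
  have hi : i < n := by simpa [tab] using h2
  rw [List.findIdx_eq (by simp)]
  refine ⟨by simp, fun j hj => ?_⟩
  simp only [List.getElem_map, List.getElem_finRange, beq_eq_false_iff_ne, ne_eq]
  intro e
  have : (⟨j, by simp at hj; omega⟩ : Fin n) = T⁻¹ ⟨i, hi⟩ := by
    rw [Equiv.Perm.eq_inv_iff_eq]; exact Fin.ext (by simpa using e)
  simp [← this] at hj

theorem sift_sound : ∀ (C : List (Lev n)) (g : Equiv.Perm (Fin n)),
    sift (n := n) (data C) (tab g) = true → Prod' C g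
  | [], g, h => by
    simp only [data, List.map_nil, sift, Bool.and_eq_true, beq_iff_eq] at h
    exact tab_injective (by rw [h.1, h.2, tab_one])
  | L :: r, g, h => by
    simp only [data, List.map_cons, sift] at h
    cases hf : (reps L).find? fun t => t.getD L.pt.val 0 == (tab g).getD L.pt.val 0 with
    | none => rw [hf] at h; simp at h
    | some t =>
      rw [hf] at h
      simp only [Bool.and_eq_true, beq_iff_eq] at h
      have ht := List.mem_of_find?_eq_some hf
      obtain ⟨T, -, rfl⟩ := isTab_reps L t ht
      have e : comp (invt (tab T)) (tab g) = tab (T⁻¹ * g) := by rw [← comp_tab, invt_tab]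
      obtain ⟨h', hh'⟩ : ∃ h', tab h' = comp (invt (tab T)) (tab g) ∧ Prod' r h' :=
        ⟨T⁻¹ * g, e.symm, sift_sound r _ (e ▸ h.2)⟩
      refine ⟨T, h', ht, hh'.2, tab_injective ?_⟩
      rw [← comp_tab, hh'.1, h.1]

theorem closure_left {α : Type*} [Group α] [Finite α] (S : Set α) (P : α → Prop) (h1 : P 1)
    (hs : ∀ s ∈ S, ∀ g, P g → P (s * g)) : ∀ g ∈ Subgroup.closure S, P g := by
  intro g hg
  induction hg using Subgroup.closure_induction_left with
  | one => exact h1
  | mul_left s hs' y _ ih => exact hs s hs' y ih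
  | inv_mul_cancel s hs' y _ ih =>
    have hpow : ∀ k : ℕ, P (s ^ k * y) := by
      intro k
      induction k with
      | zero => simpa using ih
      | succ k ihk => rw [pow_succ', mul_assoc]; exact hs s hs' _ ihk
    have he : s⁻¹ = s ^ (orderOf s - 1) := by
      refine inv_eq_of_mul_eq_one_right ?_
      rw [← pow_succ', Nat.sub_add_cancel (orderOf_pos s), pow_orderOf_eq_one]
    rw [he]; exact hpow _

theorem ok_cons {L : Lev n} {r : List (Lev n)} (h : ok (L :: r) = true) :
    (∀ s ∈ L.gens, ∀ t ∈ reps L, sift (n := n) (data (L :: r)) (comp (tab s) t) = true) ∧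
    ((reps L).map fun t => t.getD L.pt.val 0).Nodup ∧ head r ≤ grp L ∧
    (∀ g ∈ head r, g L.pt = L.pt) ∧ idt n ∈ reps L ∧ ok r = true := by
  simp only [ok, Bool.and_eq_true, List.all_eq_true, decide_eq_true_eq, List.contains_iff_mem] at h
  obtain ⟨⟨⟨⟨h1, h2⟩, h3⟩, h4⟩, h5⟩ := h
  refine ⟨h1, h2, ?_, ?_, h4, h5⟩
  · cases r with
    | nil => exact bot_le
    | cons L' r' =>
      simp only [List.all_eq_true, Bool.and_eq_true, List.contains_iff_mem] at h3
      exact (Subgroup.closure_le _).mpr fun g hg => Subgroup.subset_closure (h3 g hg).1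
  · cases r with
    | nil => intro g hg; rw [head, Subgroup.mem_bot] at hg; subst hg; rfl
    | cons L' r' =>
      simp only [List.all_eq_true, Bool.and_eq_true, beq_iff_eq] at h3
      intro g hg
      have : grp L' ≤ MulAction.stabilizer (Equiv.Perm (Fin n)) L.pt :=
        (Subgroup.closure_le _).mpr fun g hg => (h3 g hg).2
      exact this hg

theorem prod_iff : ∀ (C : List (Lev n)), ok C = true → ∀ g, g ∈ head C ↔ Prod' C g
  | [], _, g => Subgroup.mem_bot
  | L :: r, h, g => by
    obtain ⟨h1, -, h3, -, h5, h6⟩ := ok_cons h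
    have ih := prod_iff r h6
    constructor
    · refine closure_left _ _ ⟨1, 1, by rw [tab_one]; exact h5, (ih 1).mp (one_mem _),
        (one_mul 1).symm⟩ ?_ g
      rintro s hs g ⟨t, k, ht, hk, rfl⟩
      obtain ⟨t', k', ht', hk', e⟩ := sift_sound (L :: r) (s * t) (by
        rw [← comp_tab]; exact h1 s hs _ ht)
      exact ⟨t', k' * k, ht', (ih _).mp (mul_mem ((ih _).mpr hk') ((ih _).mpr hk)),
        by rw [← mul_assoc, e, mul_assoc]⟩
    · rintro ⟨t, k, ht, hk, rfl⟩
      obtain ⟨T, hT, e⟩ := isTab_reps L _ ht
      exact mul_mem (tab_injective e ▸ hT) (h3 ((ih k).mpr hk))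

theorem rep_inj {L : Lev n} {r : List (Lev n)} (h : ok (L :: r) = true) {t t' : Equiv.Perm (Fin n)}
    (ht : tab t ∈ reps L) (ht' : tab t' ∈ reps L) (e : t L.pt = t' L.pt) : t = t' := by
  refine tab_injective (List.inj_on_of_nodup_map (ok_cons h).2.1 ht ht' ?_)
  rw [getD_tab, getD_tab, e]

/-- The stabilizer of the base point is the next group. -/
theorem stab_eq {L : Lev n} {r : List (Lev n)} (h : ok (L :: r) = true) :
    head r = grp L ⊓ MulAction.stabilizer (Equiv.Perm (Fin n)) L.pt := by
  refine le_antisymm (le_inf (ok_cons h).2.2.1 fun g hg => (ok_cons h).2.2.2.1 g hg) ?_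
  rintro g ⟨hg, hfix⟩
  obtain ⟨t, k, ht, hk, rfl⟩ := (prod_iff _ h g).mp hg
  have hk' := (prod_iff _ (ok_cons h).2.2.2.2.2 k).mpr hk
  have hkp := (ok_cons h).2.2.2.1 k hk'
  have : t = 1 := by
    refine rep_inj h ht (by rw [tab_one]; exact (ok_cons h).2.2.2.2.1) ?_
    have : (t * k) L.pt = L.pt := hfix
    rwa [Equiv.Perm.mul_apply, hkp] at this
  rwa [this, one_mul]

theorem card_eq : ∀ (C : List (Lev n)), ok C = true →
    Nat.card (head C) = (C.map fun L => (reps L).length).prod
  | [], _ => by simp [head]
  | L :: r, h => by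
    obtain ⟨-, hnd, h3, h4, -, h6⟩ := ok_cons h
    rw [List.map_cons, List.prod_cons, ← card_eq r h6]
    let f : Fin (reps L).length × head r → head (L :: r) := fun p =>
      ⟨(isTab_reps L _ (List.getElem_mem p.1.2)).choose * p.2.1,
        mul_mem (isTab_reps L _ (List.getElem_mem p.1.2)).choose_spec.1 (h3 p.2.2)⟩
    rw [← Nat.card_eq_of_bijective f ⟨?_, ?_⟩, Nat.card_prod, Nat.card_fin]
    · rintro ⟨i, a⟩ ⟨j, b⟩ e
      have e' := congrArg Subtype.val e
      simp only [f] at e'
      set t := (isTab_reps L _ (List.getElem_mem i.2)).choose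
      set t' := (isTab_reps L _ (List.getElem_mem j.2)).choose
      have ht : tab t = (reps L)[i.1] := (isTab_reps L _ (List.getElem_mem i.2)).choose_spec.2
      have ht' : tab t' = (reps L)[j.1] := (isTab_reps L _ (List.getElem_mem j.2)).choose_spec.2
      have he : t L.pt = t' L.pt := by
        have := congrArg (fun g : Equiv.Perm (Fin n) => g L.pt) e'
        simpa [h4 _ a.2, h4 _ b.2] using this
      have hij : i = j := by
        refine Fin.ext ((List.Nodup.getElem_inj_iff (l := (reps L).map fun t => t.getD L.pt.val 0)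
          hnd (hi := by simp) (hj := by simp)).mp ?_)
        rw [List.getElem_map, List.getElem_map, ← ht, ← ht', getD_tab, getD_tab, he]
      subst hij
      exact Prod.ext rfl (Subtype.ext (mul_left_cancel e'))
    · rintro ⟨g, hg⟩
      obtain ⟨t, k, ht, hk, rfl⟩ := (prod_iff _ h g).mp hg
      obtain ⟨i, hi, e⟩ := List.getElem_of_mem ht
      refine ⟨(⟨i, hi⟩, ⟨k, (prod_iff _ h6 k).mpr hk⟩), Subtype.ext ?_⟩
      simp only [f]
      rw [tab_injective ((isTab_reps L _ (List.getElem_mem hi)).choose_spec.2.trans e)]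

/-- Fixing the base gives the identity. -/
theorem eq_one_of_base : ∀ (C : List (Lev n)), ok C = true → ∀ g ∈ head C,
    (∀ L ∈ C, g L.pt = L.pt) → g = 1
  | [], _, g, hg, _ => Subgroup.mem_bot.mp hg
  | L :: r, h, g, hg, hb => by
    refine eq_one_of_base r (ok_cons h).2.2.2.2.2 g ?_ fun M hM => hb M (List.mem_cons_of_mem _ hM)
    rw [stab_eq h]
    exact ⟨hg, hb L List.mem_cons_self⟩

end CfsgLib.H29.PermChain
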