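import Mathlib
import Cfsg.Agent.H29.SymIndex

/-!
The six totals on six points, and the two classes of subgroups of index six in `S₆`.
-/

set_option autoImplicit false

namespace CfsgLib.H29.S6

open Equiv MulAction

/-- The six totals. -/
def tot : Fin 6 → Finset (Perm (Fin 6)) :=
  ![
    {swap 0 1 * swap 2 3 * swap 4 5,
      swap 0 2 * swap 1 4 * swap 3 5,
      swap 0 3 * swap 1 5 * swap 2 4,
      swap 0 4 * swap 1 3 * swap 2 5,
      swap 0 5 * swap 1 2 * swap 3 4},
    {swap 0 1 * swap 2 3 * swap 4 5,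
      swap 0 2 * swap 1 5 * swap 3 4,
      swap 0 3 * swap 1 4 * swap 2 5,
      swap 0 4 * swap 1 2 * swap 3 5,
      swap 0 5 * swap 1 3 * swap 2 4},
    {swap 0 1 * swap 2 4 * swap 3 5,
      swap 0 2 * swap 1 3 * swap 4 5,
      swap 0 3 * swap 1 4 * swap 2 5,
      swap 0 4 * swap 1 5 * swap 2 3,
      swap 0 5 * swap 1 2 * swap 3 4},
    {swap 0 1 * swap 2 4 * swap 3 5,
      swap 0 2 * swap 1 5 * swap 3 4,
      swap 0 3 * swap 1 2 * swap 4 5,
      swap 0 4 * swap 1 3 * swap 2 5,
      swap 0 5 * swap 1 4 * swap 2 3},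
    {swap 0 1 * swap 2 5 * swap 3 4,
      swap 0 2 * swap 1 3 * swap 4 5,
      swap 0 3 * swap 1 5 * swap 2 4,
      swap 0 4 * swap 1 2 * swap 3 5,
      swap 0 5 * swap 1 4 * swap 2 3},
    {swap 0 1 * swap 2 5 * swap 3 4,
      swap 0 2 * swap 1 4 * swap 3 5,
      swap 0 3 * swap 1 2 * swap 4 5,
      swap 0 4 * swap 1 5 * swap 2 3,
      swap 0 5 * swap 1 3 * swap 2 4}]

/-- The image of a set of permutations under conjugation. -/
def conjImage (g : Perm (Fin 6)) (s : Finset (Perm (Fin 6))) : Finset (Perm (Fin 6)) :=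
  s.image fun t => g * t * g⁻¹

theorem conjImage_mul (g h : Perm (Fin 6)) (s : Finset (Perm (Fin 6))) :
    conjImage (g * h) s = conjImage g (conjImage h s) := by
  rw [conjImage, conjImage, conjImage, Finset.image_image]
  refine Finset.image_congr fun t _ => ?_
  simp [mul_assoc]

theorem conjImage_one (s : Finset (Perm (Fin 6))) : conjImage 1 s = s := by
  rw [conjImage]
  simp

/-- Conjugation on sets of permutations. -/
@[reducible] def totAction : MulAction (Perm (Fin 6)) (Finset (Perm (Fin 6))) where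
  smul := conjImage
  one_smul := conjImage_one
  mul_smul := conjImage_mul

set_option maxRecDepth 100000 in
theorem swap_tot : ∀ (i : Fin 5) (j : Fin 6), ∃ k,
    conjImage (swap i.castSucc i.succ) (tot j) = tot k := by decide +kernel

set_option maxRecDepth 100000 in
theorem reach_tot : ∀ j : Fin 6, ∃ a b : Fin 6, conjImage (swap a b) (tot 0) = tot j := by
  decide +kernel

set_option maxRecDepth 100000 in
theorem swap_moves_tot : ∀ a b : Fin 6, a ≠ b → conjImage (swap a b) (tot 0) ≠ tot 0 := by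
  decide +kernel

theorem tot_injective : Function.Injective tot := by
  unfold Function.Injective
  decide +kernel

/-- The stabiliser of the first total. -/
def totStab : Subgroup (Perm (Fin 6)) :=
  letI := totAction
  stabilizer (Perm (Fin 6)) (tot 0)

theorem mem_totStab {g : Perm (Fin 6)} : g ∈ totStab ↔ conjImage g (tot 0) = tot 0 := Iff.rfl

theorem index_totStab : totStab.index = 6 := by
  letI := totAction
  show (stabilizer (Perm (Fin 6)) (tot 0)).index = 6
  have hmem : ∀ g : Perm (Fin 6), g ∈ Submonoid.closure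
      (Set.range fun i : Fin 5 => swap i.castSucc i.succ) := by
    intro g
    rw [Equiv.Perm.mclosure_swap_castSucc_succ]
    trivial
  have hclos : ∀ g : Perm (Fin 6), ∀ j, ∃ k, conjImage g (tot j) = tot k := by
    intro g
    induction hmem g using Submonoid.closure_induction with
    | mem x hx =>
      obtain ⟨i, rfl⟩ := hx
      exact swap_tot i
    | one => exact fun j => ⟨j, conjImage_one _⟩
    | mul a b _ _ iha ihb =>
      intro j
      obtain ⟨k, hk⟩ := ihb j
      obtain ⟨l, hl⟩ := iha k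
      exact ⟨l, by rw [conjImage_mul, hk, hl]⟩
  have horb : orbit (Perm (Fin 6)) (tot 0) = Set.range tot := by
    refine Set.Subset.antisymm ?_ ?_
    · rintro _ ⟨g, rfl⟩
      obtain ⟨k, hk⟩ := hclos g 0
      exact ⟨k, hk.symm⟩
    · rintro _ ⟨j, rfl⟩
      obtain ⟨a, b, hab⟩ := reach_tot j
      exact ⟨swap a b, hab⟩
  rw [MulAction.index_stabilizer, horb, Set.ncard_range_of_injective tot_injective]
  simp

theorem totStab_no_swap {g : Perm (Fin 6)} (hg : g.IsSwap) : g ∉ totStab := by
  obtain ⟨a, b, hab, rfl⟩ := hg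
  exact swap_moves_tot a b hab

theorem totStab_ne_stabilizer (x : Fin 6) : totStab ≠ stabilizer (Perm (Fin 6)) x := by
  intro h
  obtain ⟨a, b, hab, hax, hbx⟩ : ∃ a b : Fin 6, a ≠ b ∧ a ≠ x ∧ b ≠ x := by clear h; revert x; decide +kernel
  refine totStab_no_swap ⟨a, b, hab, rfl⟩ ?_
  rw [h]
  exact Equiv.swap_apply_of_ne_of_ne (Ne.symm hax) (Ne.symm hbx)

open SymIndex

variable {Ω : Type*} [Fintype Ω] [DecidableEq Ω]

/-- In `S₆` every subgroup of index six is a point stabiliser or corresponds, under one fixed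
non-inner automorphism, to a point stabiliser. -/
theorem exists_outer (h6 : Fintype.card Ω = 6) :
    ∃ θ : Perm Ω ≃* Perm Ω,
      (∀ x y : Ω, (stabilizer (Perm Ω) x).comap θ.toMonoidHom ≠ stabilizer (Perm Ω) y) ∧
      ∀ H : Subgroup (Perm Ω), H.index = 6 →
        (∃ x : Ω, H = stabilizer (Perm Ω) x) ∨
          ∃ x : Ω, H = (stabilizer (Perm Ω) x).comap θ.toMonoidHom := by
  classical
  let e : Ω ≃ Fin 6 := Fintype.equivFinOfCardEq h6
  let c : Perm Ω ≃* Perm (Fin 6) := Equiv.permCongrHom e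
  let K : Subgroup (Perm Ω) := totStab.comap c.toMonoidHom
  have hK : K.index = Fintype.card Ω := by
    rw [h6, Subgroup.index_comap_of_surjective _ c.surjective, index_totStab]
  obtain ⟨θ, x₀, hθ⟩ := exists_equiv_comap (by omega) K hK
  have hswap : ∀ ψ : Perm Ω ≃* Perm Ω, ∀ g g' : Perm Ω, g.IsSwap → g'.IsSwap →
      (ψ g).IsSwap → (ψ g').IsSwap := by
    rintro ψ _ _ ⟨a, b, hab, rfl⟩ ⟨a', b', hab', rfl⟩ h
    obtain ⟨t, ht⟩ := isConj_iff.mp (Equiv.Perm.isConj_swap hab hab')
    rw [← ht, map_mul, map_mul, map_inv]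
    rw [← Equiv.Perm.card_support_eq_two] at h ⊢
    rw [Equiv.Perm.card_support_conj, h]
  -- no transposition is mapped to a transposition by θ
  have hθswap : ∀ g : Perm Ω, g.IsSwap → ¬ (θ g).IsSwap := by
    intro g hg hgs
    obtain ⟨y, hy⟩ := comap_stabilizer_of_swap (by omega) θ (fun a ha => by
      obtain ⟨a₁, a₂, ha12, rfl⟩ := ha
      obtain ⟨u, v, huv, hθg⟩ := hgs
      obtain ⟨t, ht⟩ := isConj_iff.mp (Equiv.Perm.isConj_swap huv ha12)
      rw [← ht, ← hθg, map_mul, map_mul, map_inv, MulEquiv.symm_apply_apply,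
        ← Equiv.Perm.card_support_eq_two, Equiv.Perm.card_support_conj,
        Equiv.Perm.card_support_eq_two]
      exact hg) x₀
    rw [← hθ] at hy
    refine totStab_ne_stabilizer (e y) ?_
    ext g'
    obtain ⟨a, rfl⟩ := c.surjective g'
    show a ∈ K ↔ _
    rw [hy]
    show a y = y ↔ (Equiv.permCongr e a) (e y) = e y
    rw [Equiv.permCongr_apply, Equiv.symm_apply_apply, e.injective.eq_iff]
  have hθnot : ∀ x y : Ω, (stabilizer (Perm Ω) x).comap θ.toMonoidHom ≠ stabilizer (Perm Ω) y := by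
    intro x y h
    -- conjugate to the case of the totals
    refine totStab_ne_stabilizer (e (θ.symm (swap x x₀) y)) ?_
    have hKy : K = stabilizer (Perm Ω) (θ.symm (swap x x₀) • y) := by
      rw [MulAction.stabilizer_smul_eq_stabilizer_map_conj, ← h, hθ]
      ext s
      simp only [Subgroup.mem_comap, Subgroup.mem_map]
      constructor
      · intro hs
        refine ⟨θ.symm (swap x x₀) * s * θ.symm (swap x x₀), ?_, ?_⟩
        · show θ (θ.symm (swap x x₀) * s * θ.symm (swap x x₀)) x = x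
          have hs' : θ s x₀ = x₀ := hs
          simp [hs']
        · have h2 : θ.symm (swap x x₀) * θ.symm (swap x x₀) = 1 := by
            rw [← map_mul, Equiv.swap_mul_self, map_one]
          have h3 : (θ.symm (swap x x₀))⁻¹ = θ.symm (swap x x₀) := inv_eq_of_mul_eq_one_right h2
          simp only [MulEquiv.coe_toMonoidHom, MulAut.conj_apply, h3]
          rw [← mul_assoc, ← mul_assoc, h2, one_mul, mul_assoc, h2, mul_one]
      · rintro ⟨t, ht, rfl⟩
        have ht' : θ t x = x := ht
        show θ (MulAut.conj (θ.symm (swap x x₀)) t) x₀ = x₀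
        simp [MulAut.conj_apply, ht']
    ext g'
    obtain ⟨a, rfl⟩ := c.surjective g'
    show a ∈ K ↔ _
    rw [hKy]
    show a (θ.symm (swap x x₀) y) = θ.symm (swap x x₀) y ↔
      (Equiv.permCongr e a) (e (θ.symm (swap x x₀) y)) = e (θ.symm (swap x x₀) y)
    rw [Equiv.permCongr_apply, Equiv.symm_apply_apply, e.injective.eq_iff]
  refine ⟨θ, hθnot, fun H hH => ?_⟩
  obtain ⟨φ, x, rfl⟩ := exists_equiv_comap (by omega) H (by omega)
  by_cases hall : ∀ g : Perm Ω, g.IsSwap → (φ.symm g).IsSwap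
  · exact Or.inl (comap_stabilizer_of_swap (by omega) φ hall x)
  right
  obtain ⟨g₀, hg₀, hng₀⟩ : ∃ g : Perm Ω, g.IsSwap ∧ ¬ (φ.symm g).IsSwap := by
    by_contra hc
    exact hall fun g hg => by_contra fun hn => hc ⟨g, hg, hn⟩
  -- `φ ∘ θ⁻¹` preserves transpositions
  have hpres : ∀ g : Perm Ω, g.IsSwap → ((θ.symm.trans φ).symm g).IsSwap := by
    intro g hg
    show (θ (φ.symm g)).IsSwap
    have h1 := (image_swap (by omega) φ.symm hg).resolve_left
      (fun hn => hng₀ (hswap φ.symm g g₀ hg hg₀ hn))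
    have hθs : (θ.symm g).IsSwap ∨ _ := image_swap (by omega) θ.symm hg
    have h2 : (θ.symm g).cycleType = Multiset.replicate 3 2 := by
      rcases hθs with hs | hs
      · exact absurd (by simpa using hg) (hθswap _ hs)
      · exact hs.2
    obtain ⟨t, ht⟩ := isConj_iff.mp (Equiv.Perm.isConj_iff_cycleType_eq.mpr (h2.trans h1.2.symm))
    rw [← ht, map_mul, map_mul, map_inv, MulEquiv.apply_symm_apply]
    rw [← Equiv.Perm.card_support_eq_two] at hg ⊢
    rw [Equiv.Perm.card_support_conj, hg]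
  obtain ⟨y, hy⟩ := comap_stabilizer_of_swap (by omega) (θ.symm.trans φ) hpres x
  refine ⟨y, ?_⟩
  rw [← hy, Subgroup.comap_comap]
  congr 1
  ext a
  simp

theorem comap_injective_point (h6 : Fintype.card Ω = 6) (θ : Perm Ω ≃* Perm Ω) {x y : Ω}
    (h : (stabilizer (Perm Ω) x).comap θ.toMonoidHom = (stabilizer (Perm Ω) y).comap θ.toMonoidHom) :
    x = y :=
  stabilizer_injective (by omega) (Subgroup.comap_injective (f := θ.toMonoidHom) θ.surjective h)

end CfsgLib.H29.S6
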