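import Mathlib
import Cfsg.Agent.H29.SL2Congruence

/-!
`SL₂(ℤ/5^(j+1))`: a perfect group with a solvable maximal subgroup of large derived length.
-/

set_option autoImplicit false

namespace CfsgLib.H29.SL2

open scoped commutatorElement

local instance fact_prime_five : Fact (Nat.Prime 5) := ⟨by norm_num⟩

variable (j : ℕ)

/-- The ring `ℤ/5^(j+1)`. -/
abbrev R5 := ZMod (5 ^ (j + 1))

/-- Reduction modulo five. -/
noncomputable def red : R5 j →+* ZMod 5 :=
  ZMod.castHom (dvd_pow_self 5 (by omega)) (ZMod 5)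

theorem red_natCast (a : ℕ) : red j (a : R5 j) = (a : ZMod 5) := map_natCast (red j) a

theorem isUnit_iff_red (x : R5 j) : IsUnit x ↔ red j x ≠ 0 := by
  obtain ⟨a, rfl⟩ := ZMod.natCast_zmod_surjective x
  rw [red_natCast, ne_eq, ZMod.natCast_eq_zero_iff, ZMod.isUnit_iff_coprime,
    Nat.coprime_pow_right_iff (by omega), Nat.coprime_comm,
    (Fact.out : Nat.Prime 5).coprime_iff_not_dvd]

theorem red_eq_zero (x : R5 j) (h : red j x = 0) : ∃ y, x = (5 : R5 j) * y := by
  obtain ⟨a, rfl⟩ := ZMod.natCast_zmod_surjective x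
  rw [red_natCast, ZMod.natCast_eq_zero_iff] at h
  obtain ⟨b, rfl⟩ := h
  exact ⟨b, by push_cast; rfl⟩

theorem red_five : red j (5 : R5 j) = 0 := by
  have h : red j ((5 : ℕ) : R5 j) = ((5 : ℕ) : ZMod 5) := red_natCast j 5
  rw [ZMod.natCast_self] at h
  exact_mod_cast h

theorem five_pow_eq_zero : (5 : R5 j) ^ (j + 1) = 0 := by
  have h : ((5 ^ (j + 1) : ℕ) : R5 j) = 0 := ZMod.natCast_self _
  exact_mod_cast h

theorem five_pow_ne_zero {m : ℕ} (hm : m ≤ j) : (5 : R5 j) ^ m ≠ 0 := by
  intro h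
  have h' : ((5 ^ m : ℕ) : R5 j) = 0 := by exact_mod_cast h
  rw [ZMod.natCast_eq_zero_iff, Nat.pow_dvd_pow_iff_le_right (by norm_num)] at h'
  omega

theorem nontrivial_R5 : Nontrivial (R5 j) :=
  ⟨⟨5 ^ 0, 0, five_pow_ne_zero j (Nat.zero_le j)⟩⟩

theorem isLocalRing_R5 : IsLocalRing (R5 j) :=
  have := nontrivial_R5 j
  IsLocalRing.of_nonunits_add fun a b ha hb => by
    rw [mem_nonunits_iff, isUnit_iff_red, not_not] at *
    rw [map_add, ha, hb, add_zero]

/-- The unit two. -/
noncomputable def two5 : (R5 j)ˣ :=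
  ((isUnit_iff_red j 2).mpr (by rw [map_ofNat]; decide)).unit

theorem perfect_SL : commutator (SL (R5 j)) = ⊤ := by
  have := isLocalRing_R5 j
  refine perfect (two5 j) ((isUnit_iff_red j _).mpr ?_)
  rw [show ((two5 j : (R5 j)ˣ) : R5 j) = 2 from IsUnit.unit_spec _, map_sub, map_pow, map_ofNat,
    map_one]
  decide

/-- Elements that are upper triangular modulo five. -/
noncomputable def borel : Subgroup (SL (R5 j)) where
  carrier := {g | red j (g 1 0) = 0}
  one_mem' := by simp
  mul_mem' {a b} ha hb := by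
    simp only [Set.mem_setOf_eq] at ha hb ⊢
    rw [Matrix.SpecialLinearGroup.coe_mul, Matrix.mul_apply, Fin.sum_univ_two]
    simp [ha, hb]
  inv_mem' {a} ha := by
    simp only [Set.mem_setOf_eq] at ha ⊢
    rw [Matrix.SpecialLinearGroup.coe_inv, Matrix.adjugate_fin_two]
    simp [ha]

theorem mem_borel {g : SL (R5 j)} : g ∈ borel j ↔ red j (g 1 0) = 0 := Iff.rfl

theorem upper_mem_borel (t : R5 j) : upper t ∈ borel j := by
  rw [mem_borel, coe_upper]; simp

theorem lower_five_mem_borel (t : R5 j) : lower (5 * t) ∈ borel j := by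
  rw [mem_borel, coe_lower]; simp [red_five]

theorem diag_mem_borel (u : (R5 j)ˣ) : diag u ∈ borel j := by
  rw [mem_borel, coe_diag]; simp

theorem isCoatom_borel : IsCoatom (borel j) := by
  have := nontrivial_R5 j
  have := isLocalRing_R5 j
  constructor
  · intro h
    have h1 : lower (1 : R5 j) ∈ borel j := h ▸ Subgroup.mem_top _
    rw [mem_borel, coe_lower] at h1
    simp at h1
  · intro K hK
    obtain ⟨hle, g, hgK, hgB⟩ := SetLike.lt_iff_le_and_exists.mp hK
    obtain ⟨c, hc⟩ := (isUnit_iff_red j _).mpr hgB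
    have hu : ∀ t, upper t ∈ K := fun t => hle (upper_mem_borel j t)
    have hgc : lower (c : R5 j) ∈ K := by
      rw [eq_upper_lower_upper g c hc.symm] at hgK
      exact (K.mul_mem_cancel_left (hu _)).mp ((K.mul_mem_cancel_right (hu _)).mp hgK)
    have hn : ∀ a : ℕ, lower ((a : R5 j) * c) ∈ K := by
      intro a
      induction a with
      | zero => simp [lower_zero]
      | succ a ih => rw [Nat.cast_succ, add_mul, one_mul, lower_add]; exact K.mul_mem ih hgc
    refine closure_elementary K hu fun t => ?_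
    obtain ⟨a, ha⟩ := ZMod.natCast_zmod_surjective (red j (t * ((c⁻¹ : (R5 j)ˣ) : R5 j)))
    obtain ⟨y, hy⟩ := red_eq_zero j (t * ((c⁻¹ : (R5 j)ˣ) : R5 j) - a)
      (by rw [map_sub, red_natCast, ha, sub_self])
    have ht : t = (a : R5 j) * c + 5 * (y * c) := by
      linear_combination (c : R5 j) * hy - t * c.mul_inv
    rw [ht, lower_add]
    exact K.mul_mem (hn a) (hle (lower_five_mem_borel j _))

/-- The torus quotient of the Borel subgroup. -/
noncomputable def borelChar : borel j →* ZMod 5 where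
  toFun g := red j (g.1 0 0)
  map_one' := by simp
  map_mul' a b := by
    have hb := (mem_borel j).mp b.2
    rw [Subgroup.coe_mul, Matrix.SpecialLinearGroup.coe_mul, Matrix.mul_apply, Fin.sum_univ_two]
    simp [hb]

theorem pow_five_step {n : Type*} [Fintype n] [DecidableEq n] {A : Type*} [CommRing A]
    (i : ℕ) (X : Matrix n n A) :
    ∃ Y : Matrix n n A, (1 + (5 : A) ^ (i + 1) • X) ^ 5 = 1 + (5 : A) ^ (i + 2) • Y := by
  obtain ⟨Z, hZ⟩ : ∃ Z : Matrix n n A, (1 + (5 : A) ^ (i + 1) • X) ^ 5 =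
      1 + (5 * (5 : A) ^ (i + 1)) • X + ((5 : A) ^ (i + 1) * (5 : A) ^ (i + 1)) • Z := by
    refine ⟨(10 : A) • X ^ 2 + (10 * (5 : A) ^ (i + 1)) • X ^ 3 +
      (5 * ((5 : A) ^ (i + 1)) ^ 2) • X ^ 4 + ((5 : A) ^ (i + 1)) ^ 3 • X ^ 5, ?_⟩
    generalize (5 : A) ^ (i + 1) = s
    simp only [pow_succ, pow_zero, one_mul, mul_add, add_mul, mul_one, Matrix.smul_mul,
      Matrix.mul_smul, smul_add, smul_smul, mul_assoc]
    module
  refine ⟨X + (5 : A) ^ i • Z, ?_⟩
  rw [hZ, smul_add, smul_smul, add_assoc, ← pow_succ', ← pow_add, ← pow_add,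
    show i + 1 + 1 = i + 2 by omega, show i + 1 + (i + 1) = i + 2 + i by omega]

theorem isPGroup_ker : IsPGroup 5 (borelChar j).ker := by
  intro g
  refine ⟨j + 1, Subtype.ext (Subtype.ext (Subtype.ext ?_))⟩
  simp only [SubmonoidClass.coe_pow, OneMemClass.coe_one, Matrix.SpecialLinearGroup.coe_pow,
    Matrix.SpecialLinearGroup.coe_one]
  set M := ((g : borel j) : SL (R5 j)).1 with hM
  have h00 : red j (M 0 0) = 1 := g.2
  have h10 : red j (M 1 0) = 0 := (mem_borel j).mp (g : borel j).2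
  have hmap : (red j).mapMatrix M = !![1, red j (M 0 1); 0, 1] := by
    have hdet := congrArg (red j) (det_entries ((g : borel j) : SL (R5 j)))
    rw [map_sub, map_mul, map_mul, h10, mul_zero, sub_zero, h00, one_mul, map_one] at hdet
    have h11 : red j (M 1 1) = 1 := hdet
    refine Matrix.ext fun a b => ?_
    fin_cases a <;> fin_cases b <;> simp [RingHom.mapMatrix_apply, h00, h10, h11]
  have h5 : (red j).mapMatrix (M ^ 5) = 1 := by
    rw [map_pow, hmap]
    generalize red j (M 0 1) = b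
    revert b
    decide
  obtain ⟨X, hX⟩ : ∃ X : Matrix (Fin 2) (Fin 2) (R5 j), M ^ 5 = 1 + (5 : R5 j) ^ 1 • X := by
    have hz : ∀ a b, red j ((M ^ 5 - 1 : Matrix (Fin 2) (Fin 2) (R5 j)) a b) = 0 := by
      intro a b
      have h := congrFun (congrFun h5 a) b
      rw [RingHom.mapMatrix_apply, Matrix.map_apply] at h
      rw [Matrix.sub_apply, map_sub, h, ← Matrix.map_apply (f := red j) (M := (1 : Matrix (Fin 2) (Fin 2) (R5 j))),
        Matrix.map_one _ (map_zero _) (map_one _), sub_self]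
    choose X hX using fun a b => red_eq_zero j _ (hz a b)
    refine ⟨Matrix.of X, ?_⟩
    rw [← sub_eq_iff_eq_add']
    refine Matrix.ext fun a b => ?_
    rw [hX, Matrix.smul_apply, Matrix.of_apply, pow_one, smul_eq_mul]
  have key : ∀ i, ∃ Y : Matrix (Fin 2) (Fin 2) (R5 j),
      M ^ 5 ^ (i + 1) = 1 + (5 : R5 j) ^ (i + 1) • Y := by
    intro i
    induction i with
    | zero => exact ⟨X, by simpa using hX⟩
    | succ i ih =>
      obtain ⟨Y, hY⟩ := ih
      obtain ⟨Y', hY'⟩ := pow_five_step i Y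
      exact ⟨Y', by rw [pow_succ 5 (i + 1), pow_mul, hY, hY']⟩
  obtain ⟨Y, hY⟩ := key j
  rw [hY, five_pow_eq_zero, zero_smul, add_zero]

theorem solvable_borel : Group.IsSolvable (borel j) := by
  have : Finite (borelChar j).ker := inferInstance
  have : Group.IsNilpotent (borelChar j).ker := (isPGroup_ker j).isNilpotent
  have h1 : Group.IsSolvable (borelChar j).ker := inferInstance
  let f : borel j →* (ZMod 5)ˣ := (borelChar j).toHomUnits
  have hker : f.ker ≤ (borelChar j).ker.subtype.range := by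
    rw [Subgroup.range_subtype]
    intro x hx
    exact congrArg Units.val hx
  exact solvable_of_ker_le_range (borelChar j).ker.subtype f hker

theorem coe_borel_commutator (a b : borel j) :
    ((⁅a, b⁆ : borel j) : SL (R5 j)) = ⁅(a : SL (R5 j)), (b : SL (R5 j))⁆ :=
  map_commutatorElement (borel j).subtype a b

/-- The standard `sl₂` triple. -/
def tri : Fin 3 → Matrix (Fin 2) (Fin 2) (R5 j) :=
  ![!![0, 1; 0, 0], !![0, 0; 1, 0], !![1, 0; 0, -1]]

theorem derived_level (n : ℕ) (i : Fin 3) :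
    ∃ x ∈ derivedSeries (borel j) n, ∃ a : R5 j, IsUnit a ∧
      Level (5 : R5 j) (2 ^ n) (a • tri j i) (x : SL (R5 j)) := by
  have := nontrivial_R5 j
  induction n generalizing i with
  | zero =>
    simp only [derivedSeries_zero, Subgroup.mem_top, true_and, pow_zero]
    fin_cases i
    · refine ⟨⟨upper 5, upper_mem_borel j 5⟩, 1, isUnit_one, 0, ?_⟩
      rw [coe_upper, Matrix.one_fin_two]
      simp [tri]
    · refine ⟨⟨lower (5 * 1), lower_five_mem_borel j 1⟩, 1, isUnit_one, 0, ?_⟩
      rw [coe_lower, Matrix.one_fin_two]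
      simp [tri]
    · have h6 : IsUnit (6 : R5 j) := (isUnit_iff_red j 6).mpr (by rw [map_ofNat]; decide)
      obtain ⟨u, hu⟩ := h6
      refine ⟨⟨diag u, diag_mem_borel j u⟩, 1, isUnit_one, !![0, 0; 0, ((u⁻¹ : (R5 j)ˣ) : R5 j)], ?_⟩
      have h1 : (6 : R5 j) * ((u⁻¹ : (R5 j)ˣ) : R5 j) = 1 := by rw [← hu]; exact u.mul_inv
      rw [coe_diag, Matrix.one_fin_two, hu]
      refine Matrix.ext fun a b => ?_
      fin_cases a <;> fin_cases b <;> simp [tri]
      · norm_num
      · linear_combination (-4 : R5 j) * h1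
  | succ n ih =>
    obtain ⟨e, he, a, ha, hle⟩ := ih 0
    obtain ⟨f, hf, b, hb, hlf⟩ := ih 1
    obtain ⟨h, hh, c, hc, hlh⟩ := ih 2
    obtain ⟨m, hm⟩ : ∃ m, 2 ^ n = m + 1 := ⟨2 ^ n - 1, by have := Nat.one_le_two_pow (n := n); omega⟩
    rw [hm] at hle hlf hlh
    rw [show 2 ^ (n + 1) = 2 * (m + 1) by rw [pow_succ, hm, mul_comm]]
    have h2 : IsUnit (2 : R5 j) := (two5 j).isUnit.map (MonoidHom.id _) |> fun h => by
      rwa [MonoidHom.id_apply, show ((two5 j : (R5 j)ˣ) : R5 j) = 2 from IsUnit.unit_spec _] at h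
    fin_cases i
    · refine ⟨⁅h, e⁆, Subgroup.commutator_mem_commutator hh he, 2 * c * a, (h2.mul hc).mul ha, ?_⟩
      have := level_commutator hlh hle
      rw [← coe_borel_commutator] at this
      convert this using 1
      refine Matrix.ext fun p q => ?_
      fin_cases p <;> fin_cases q <;> simp [tri, Matrix.mul_apply, Fin.sum_univ_two] <;> ring
    · refine ⟨⁅f, h⁆, Subgroup.commutator_mem_commutator hf hh, 2 * c * b, (h2.mul hc).mul hb, ?_⟩
      have := level_commutator hlf hlh
      rw [← coe_borel_commutator] at this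
      convert this using 1
      refine Matrix.ext fun p q => ?_
      fin_cases p <;> fin_cases q <;> simp [tri, Matrix.mul_apply, Fin.sum_univ_two] <;> ring
    · refine ⟨⁅e, f⁆, Subgroup.commutator_mem_commutator he hf, a * b, ha.mul hb, ?_⟩
      have := level_commutator hle hlf
      rw [← coe_borel_commutator] at this
      convert this using 1
      refine Matrix.ext fun p q => ?_
      fin_cases p <;> fin_cases q <;> simp [tri, Matrix.mul_apply, Fin.sum_univ_two] <;> ring

theorem derivedSeries_borel_ne_bot {n : ℕ} (hn : 2 ^ n ≤ j) : derivedSeries (borel j) n ≠ ⊥ := by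
  intro hbot
  obtain ⟨x, hx, a, ha, Y, hY⟩ := derived_level j n 0
  rw [hbot, Subgroup.mem_bot] at hx
  subst hx
  have h := congrFun (congrFun hY 0) 1
  simp only [OneMemClass.coe_one, Matrix.SpecialLinearGroup.coe_one, Matrix.add_apply,
    Matrix.smul_apply, tri, Matrix.cons_val_zero, Matrix.of_apply, Matrix.cons_val_one,
    smul_eq_mul, ne_eq, zero_ne_one, not_false_eq_true, Matrix.one_apply_ne, zero_add, mul_one] at h
  have hu : IsUnit (a + 5 * Y 0 1) := by
    rw [isUnit_iff_red, map_add, map_mul, red_five, zero_mul, add_zero]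
    exact (isUnit_iff_red j a).mp ha
  have h0 : (5 : R5 j) ^ 2 ^ n * (a + 5 * Y 0 1) = 0 := by
    rw [pow_succ (5 : R5 j) (2 ^ n)] at h
    linear_combination -h
  exact five_pow_ne_zero j hn ((hu.mul_left_eq_zero).mp h0)

end CfsgLib.H29.SL2
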