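import Mathlib
import Cfsg.Agent.S0538
import Cfsg.Agent.S0539

set_option autoImplicit false
open Pointwise

namespace Cfsg.Agent.H29.Zipper

variable {G : Type*} [Group G]

/-- `H` contains `A` and is the only normal subgroup of itself containing `A`. -/
def Full (A H : Subgroup G) : Prop :=
  A ≤ H ∧ ∀ N : Subgroup G, A ≤ N → N ≤ H → H ≤ Subgroup.normalizer (N : Set G) → N = H

/-- The join of the proper subgroups which are generated by their conjugates of `A`. -/
def fullJoin (A : Subgroup G) : Subgroup G := sSup {H | H ≠ ⊤ ∧ Full A H}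

theorem full_iff (A H : Subgroup G) (hA : A ≤ H) :
    Subgroup.normalClosure ((A.subgroupOf H : Subgroup ↥H) : Set ↥H) = ⊤ ↔ Full A H := by
  constructor
  · intro h
    refine ⟨hA, fun N hAN hNH hn => ?_⟩
    have : (N.subgroupOf H).Normal := Subgroup.normal_subgroupOf_of_le_normalizer hn
    have h1 : Subgroup.normalClosure ((A.subgroupOf H : Subgroup ↥H) : Set ↥H) ≤ N.subgroupOf H :=
      Subgroup.normalClosure_le_normal fun x hx => hAN hx
    rw [h, top_le_iff, Subgroup.subgroupOf_eq_top] at h1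
    exact le_antisymm hNH h1
  · intro h
    have hle : H ≤ Subgroup.normalizer
        (((Subgroup.normalClosure ((A.subgroupOf H : Subgroup ↥H) : Set ↥H)).map H.subtype :
          Subgroup G) : Set G) := by
      refine (Subgroup.normal_subgroupOf_iff_le_normalizer (Subgroup.map_subtype_le _)).1 ?_
      rw [Subgroup.subgroupOf, Subgroup.comap_map_eq_self_of_injective H.subtype_injective]
      exact Subgroup.normalClosure_normal
    have h1 := h.2 _ ?_ (Subgroup.map_subtype_le _) hle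
    · apply Subgroup.map_injective H.subtype_injective
      rw [h1, ← MonoidHom.range_eq_map, Subgroup.range_subtype]
    · intro x hx
      exact ⟨⟨x, hA hx⟩, Subgroup.subset_normalClosure (Subgroup.mem_subgroupOf.2 hx), rfl⟩

theorem full_self (A : Subgroup G) : Full A A := ⟨le_rfl, fun _ h1 h2 _ => le_antisymm h2 h1⟩

theorem le_fullJoin {A : Subgroup G} (hA : A ≠ ⊤) : A ≤ fullJoin A :=
  le_sSup ⟨hA, full_self A⟩

theorem full_trans {A K H : Subgroup G} (h1 : Full A K) (h2 : Full K H) : Full A H := by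
  refine ⟨h1.1.trans h2.1, fun N hAN hNH hn => h2.2 N ?_ hNH hn⟩
  have h3 := h1.2 (N ⊓ K) (le_inf hAN h1.1) inf_le_right ?_
  · exact h3 ▸ inf_le_left
  · exact le_trans (le_inf (h2.1.trans hn) Subgroup.le_normalizer)
      Subgroup.inf_normalizer_le_normalizer_inf

theorem fullJoin_le_of_full {A K : Subgroup G} (h : Full A K) : fullJoin K ≤ fullJoin A :=
  sSup_le_sSup fun _ hH => ⟨hH.1, full_trans h hH.2⟩

theorem full_smul (e : MulAut G) {A H : Subgroup G} (h : Full A H) : Full (e • A) (e • H) := by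
  refine ⟨Subgroup.pointwise_smul_le_pointwise_smul_iff.2 h.1, fun N hAN hNH hn => ?_⟩
  have h1 : A ≤ e⁻¹ • N := Subgroup.pointwise_smul_subset_iff.1 hAN
  have h2 : e⁻¹ • N ≤ H :=
    Subgroup.pointwise_smul_subset_iff.2 (by rwa [inv_inv])
  have h3 := h.2 _ h1 h2 ?_
  · exact inv_smul_eq_iff.1 h3
  · intro x hx
    have h4 := hn (Subgroup.smul_mem_pointwise_smul _ e _ hx)
    rw [Subgroup.mem_normalizer_iff] at h4 ⊢
    intro y
    rw [Subgroup.mem_inv_pointwise_smul_iff, Subgroup.mem_inv_pointwise_smul_iff, h4 (e • y)]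
    simp [MulAut.smul_def]

theorem fullJoin_smul_le (e : MulAut G) (A : Subgroup G) :
    fullJoin (e • A) ≤ e • fullJoin A := by
  refine sSup_le fun H hH => ?_
  have h1 : Full A (e⁻¹ • H) := by simpa using full_smul e⁻¹ hH.2
  have h2 : e⁻¹ • H ≤ fullJoin A := le_sSup ⟨fun he => hH.1 (by
    rw [inv_smul_eq_iff] at he
    rw [he]
    exact Subgroup.map_top_of_surjective _ e.surjective), h1⟩
  exact Subgroup.subset_pointwise_smul_iff.2 h2

theorem fullJoin_smul (e : MulAut G) (A : Subgroup G) :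
    fullJoin (e • A) = e • fullJoin A := by
  refine le_antisymm (fullJoin_smul_le e A) ?_
  have h := fullJoin_smul_le e⁻¹ (e • A)
  rw [inv_smul_smul] at h
  exact Subgroup.pointwise_smul_subset_iff.2 h

theorem normalizer_fullJoin_ne_top [Finite G] {A : Subgroup G}
    (hcl : Subgroup.normalClosure (A : Set G) = ⊤) (hA : A ≠ ⊤) (hY : fullJoin A ≠ ⊤) :
    Subgroup.normalizer (fullJoin A : Set G) ≠ ⊤ := by
  intro h
  have : (fullJoin A).Normal := Subgroup.normalizer_eq_top_iff.1 h
  exact hY (top_le_iff.1 (hcl ▸ Subgroup.normalClosure_le_normal (le_fullJoin hA)))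

theorem conj_smul_iff {H : Subgroup G} {g : G} :
    MulAut.conj g • H = H ↔ g ∈ Subgroup.normalizer (H : Set G) :=
  (Subgroup.mem_normalizer_iff_map_conj_eq).symm

variable [Finite G]

/-- `K` is subnormal in `X`. -/
def SN (K X : Subgroup G) : Prop := (K.subgroupOf X).IsSubnormal

omit [Finite G] in
theorem sn_trans {K N X : Subgroup G} (hKN : K ≤ N) (hNX : N ≤ X) (h1 : SN K N) (h2 : SN N X) :
    SN K X := by
  refine Subgroup.IsSubnormal.trans (K := N.subgroupOf X) (fun x hx => hKN hx) ?_ h2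
  exact h1.comap (Subgroup.subgroupOfEquivOfLe hNX).toMonoidHom

theorem exists_terminal (A : Subgroup G) : ∀ (n : ℕ) (X : Subgroup G), Nat.card X = n → A ≤ X →
    ∃ K, Full A K ∧ K ≤ X ∧ SN K X := by
  intro n
  induction n using Nat.strong_induction_on with
  | _ n IH =>
  intro X hn hAX
  by_cases hF : Full A X
  · exact ⟨X, hF, le_rfl, by rw [SN, Subgroup.subgroupOf_self]; exact Subgroup.IsSubnormal.top⟩
  · simp only [Full, hAX, true_and, not_forall] at hF
    obtain ⟨N, hAN, hNX, hn', hne⟩ := hF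
    obtain ⟨K, hK, hKN, hsn⟩ := IH (Nat.card N)
      (hn ▸ Set.ncard_lt_ncard (s := (N : Set G)) (SetLike.coe_ssubset_coe.2 (lt_of_le_of_ne hNX hne)) (Set.toFinite _))
      N rfl hAN
    exact ⟨K, hK, hKN.trans hNX, sn_trans hKN hNX hsn
      (Subgroup.normal_subgroupOf_of_le_normalizer hn').isSubnormal⟩

theorem eq_of_full_of_sn {P H : Subgroup G} (h : Full P H) (hs : SN P H) : P = H := by
  rcases hs.lt_normal with e | ⟨N, hN, hPN, hlt⟩
  · exact le_antisymm h.1 (Subgroup.subgroupOf_eq_top.1 e)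
  · have h1 := h.2 (N.map H.subtype) ?_ (Subgroup.map_subtype_le _) ?_
    · exact absurd (Subgroup.map_injective H.subtype_injective
        (h1.trans ((MonoidHom.range_eq_map _).symm.trans (Subgroup.range_subtype H)).symm)) hlt.ne
    · intro x hx
      exact ⟨⟨x, h.1 hx⟩, hPN (Subgroup.mem_subgroupOf.2 hx), rfl⟩
    · refine (Subgroup.normal_subgroupOf_iff_le_normalizer (Subgroup.map_subtype_le _)).1 ?_
      rwa [Subgroup.subgroupOf, Subgroup.comap_map_eq_self_of_injective H.subtype_injective]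

/-- `A` lies in at most one maximal subgroup. -/
def Uniq (A : Subgroup G) : Prop :=
  ∀ M M' : Subgroup G, IsCoatom M → IsCoatom M' → A ≤ M → A ≤ M' → M = M'

/-- The hypotheses on `A`. -/
def Good (A : Subgroup G) : Prop :=
  Subgroup.normalClosure (A : Set G) = ⊤ ∧ A ≠ ⊤ ∧ fullJoin A ≠ ⊤

omit [Finite G] in
theorem normalClosure_mono_eq_top {A B : Subgroup G} (h : A ≤ B)
    (hA : Subgroup.normalClosure (A : Set G) = ⊤) : Subgroup.normalClosure (B : Set G) = ⊤ :=
  top_le_iff.1 (hA ▸ Subgroup.normalClosure_mono h)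

theorem exists_coatom {H : Subgroup G} (h : H ≠ ⊤) : ∃ M, IsCoatom M ∧ H ≤ M :=
  (eq_top_or_exists_le_coatom H).resolve_left h

theorem le_coatom_of_le {A M0 : Subgroup G} (hle : Subgroup.normalizer (fullJoin A : Set G) ≤ M0)
    {K : Subgroup G} (hK : K ≠ ⊤) (hF : Full A K) : K ≤ M0 :=
  ((le_sSup (show K ∈ {H | H ≠ ⊤ ∧ Full A H} from ⟨hK, hF⟩)).trans Subgroup.le_normalizer).trans hle

theorem coatom_smul (e : MulAut G) {M : Subgroup G} (h : IsCoatom M) : IsCoatom (e • M) := by
  let f : Subgroup G ≃o Subgroup G :=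
    { toEquiv := MulAction.toPerm e
      map_rel_iff' := Subgroup.pointwise_smul_le_pointwise_smul_iff }
  exact (OrderIso.isCoatom_iff f M).2 h

theorem normalizer_le_normalizer_fullJoin (A : Subgroup G) :
    Subgroup.normalizer (A : Set G) ≤ Subgroup.normalizer (fullJoin A : Set G) := by
  intro g hg
  rw [← conj_smul_iff] at hg ⊢
  rw [← fullJoin_smul, hg]

theorem main : ∀ (n : ℕ) (A : Subgroup G), Nat.card G - Nat.card A = n → Good A → Uniq A := by
  intro n
  induction n using Nat.strong_induction_on with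
  | _ n IH =>
  intro A hn ⟨hcl, hA, hY⟩ M M' hM hM' hAM hAM'
  obtain ⟨M0, hM0, hM0Y⟩ := exists_coatom (normalizer_fullJoin_ne_top hcl hA hY)
  suffices h : ∀ L, IsCoatom L → A ≤ L → L = M0 from (h M hM hAM).trans (h M' hM' hAM').symm
  by_contra hbad
  push Not at hbad
  have hbig : ∀ B : Subgroup G, A.carrier.ncard < (B : Set G).ncard → Good B → Uniq B := by
    intro B hlt hB
    refine IH _ ?_ B rfl hB
    have h1 : Nat.card A < Nat.card B := by
      rw [← Nat.card_coe_set_eq, ← Nat.card_coe_set_eq] at hlt; exact hlt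
    have h2 := Subgroup.card_le_card_group B
    omega
  -- subnormality outside the home
  have F1 : ∀ (g : G) (X : Subgroup G), X ≠ ⊤ → MulAut.conj g • A ≤ X →
      ¬ X ≤ MulAut.conj g • M0 → SN (MulAut.conj g • A) X := by
    intro g X hX hAX hXM
    obtain ⟨K, hK, hKX, hsn⟩ := exists_terminal _ _ X rfl hAX
    rcases hK.1.eq_or_lt with rfl | hlt
    · exact hsn
    · exfalso
      set e := MulAut.conj g
      have hKt : K ≠ ⊤ := fun h => hX (top_le_iff.1 (h ▸ hKX))
      have hF : Full A (e⁻¹ • K) := by simpa using full_smul e⁻¹ hK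
      have hK1 : e⁻¹ • A.map e.toMonoidHom = A := inv_smul_smul e A
      have hK2 : A < e⁻¹ • K := by
        refine lt_of_le_of_ne hF.1 fun he => hlt.ne ?_
        rw [he, smul_inv_smul]
      have hK3 : e⁻¹ • K ≠ ⊤ := by
        intro he
        rw [inv_smul_eq_iff] at he
        exact hKt (he.trans (Subgroup.map_top_of_surjective _ e.surjective))
      obtain ⟨P, hP, hXP⟩ := exists_coatom hX
      have hu := hbig (e⁻¹ • K) (Set.ncard_lt_ncard hK2 (Set.toFinite _))
        ⟨normalClosure_mono_eq_top hF.1 hcl, hK3,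
          fun h => hY (top_le_iff.1 (h ▸ fullJoin_le_of_full hF))⟩
      have h4 := hu (e⁻¹ • P) M0 (coatom_smul _ hP) hM0
        (Subgroup.pointwise_smul_le_pointwise_smul_iff.2 (hKX.trans hXP))
        (le_coatom_of_le hM0Y hK3 hF)
      exact hXM (hXP.trans (le_of_eq (inv_smul_eq_iff.1 h4)))
  have hNA : Subgroup.normalizer (A : Set G) ≤ M0 :=
    (normalizer_le_normalizer_fullJoin A).trans hM0Y
  -- conjugates and homes
  let IsC : Subgroup G → Prop := fun C => ∃ g : G, MulAut.conj g • A = C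
  have hhome : ∀ g g' : G, MulAut.conj g • A = MulAut.conj g' • A →
      MulAut.conj g • M0 = MulAut.conj g' • M0 := by
    intro g g' h
    have h1 : MulAut.conj (g⁻¹ * g') • A = A := by
      rw [map_mul, map_inv, mul_smul, ← h, inv_smul_smul]
    have h2 := Subgroup.conj_smul_eq_self_of_mem (H := M0)
      (hNA (conj_smul_iff.1 h1))
    rw [map_mul, map_inv, mul_smul, inv_smul_eq_iff] at h2
    exact h2.symm
  classical
  let home : Subgroup G → Subgroup G := fun C =>
    if h : IsC C then MulAut.conj h.choose • M0 else ⊤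
  have home_eq : ∀ g : G, home (MulAut.conj g • A) = MulAut.conj g • M0 := by
    intro g
    have h : IsC (MulAut.conj g • A) := ⟨g, rfl⟩
    simp only [home, dif_pos h]
    exact hhome _ _ h.choose_spec
  have hcoat : ∀ C, IsC C → IsCoatom (home C) := by
    rintro _ ⟨g, rfl⟩; rw [home_eq]; exact coatom_smul _ hM0
  have hChome : ∀ C, IsC C → C ≤ home C := by
    rintro _ ⟨g, rfl⟩
    rw [home_eq]
    exact Subgroup.pointwise_smul_le_pointwise_smul_iff.2
      ((le_coatom_of_le hM0Y hA (full_self A)))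
  have hhome_smul : ∀ C, IsC C → ∀ y : G, IsC (MulAut.conj y • C) ∧
      home (MulAut.conj y • C) = MulAut.conj y • home C := by
    rintro _ ⟨g, rfl⟩ y
    rw [← mul_smul, ← map_mul]
    exact ⟨⟨_, rfl⟩, by rw [home_eq, home_eq, map_mul, mul_smul]⟩
  have hAC : IsC A := ⟨1, by simp⟩
  have hAhome : home A = M0 := by simpa using home_eq 1
  have hsn : ∀ C, IsC C → ∀ X : Subgroup G, X ≠ ⊤ → C ≤ X → ¬ X ≤ home C → SN C X := by
    rintro _ ⟨g, rfl⟩ X; rw [home_eq]; exact F1 g X
  have hcard : ∀ C, IsC C → (C : Set G).ncard = A.carrier.ncard := by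
    rintro _ ⟨g, rfl⟩
    exact Set.ncard_image_of_injective _ (MulAut.conj g).injective
  -- two conjugates in two maximal subgroups
  have F2 : ∀ B C L, IsC B → IsC C → B ≠ C → C ≤ home B → IsCoatom L → B ≤ L → C ≤ L →
      L ≠ home B → B ≤ home C ∧ home B ≠ home C := by
    intro B C L hB hC hne hCB hL hBL hCL hLne
    by_contra hcon
    have hlt : B < B ⊔ C := by
      refine lt_of_le_of_ne le_sup_left fun h => hne ?_
      have hle : C ≤ B := h ▸ le_sup_right
      exact (SetLike.coe_injective (Set.eq_of_subset_of_ncard_le hle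
        (by rw [hcard B hB, hcard C hC]) (Set.toFinite _))).symm
    have hPB : B ⊔ C ≤ home B := sup_le (hChome B hB) hCB
    have hPt : B ⊔ C ≠ ⊤ := fun h => (hcoat B hB).1 (top_le_iff.1 (h ▸ hPB))
    have hBcl : Subgroup.normalClosure (B : Set G) = ⊤ := by
      obtain ⟨g, rfl⟩ := hB
      refine top_le_iff.1 (hcl ▸ Subgroup.normalClosure_le_normal fun a ha => ?_)
      have h1 : MulAut.conj g a ∈ MulAut.conj g • A := Subgroup.smul_mem_pointwise_smul _ _ _ ha
      have h2 := Subgroup.Normal.conj_mem (Subgroup.normalClosure_normal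
        (s := ((MulAut.conj g • A : Subgroup G) : Set G))) _ (Subgroup.subset_normalClosure h1) g⁻¹
      simpa [MulAut.conj_apply, mul_assoc] using h2
    have hjoin : fullJoin (B ⊔ C) ≤ home B := by
      refine sSup_le fun H hH => ?_
      by_contra hHB
      have h1 : SN B H := hsn B hB H hH.1 (le_sup_left.trans hH.2.1) hHB
      have h2 : SN C H := by
        refine hsn C hC H hH.1 (le_sup_right.trans hH.2.1) fun hHC => ?_
        have hBC : B ≤ home C := (le_sup_left.trans hH.2.1).trans hHC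
        exact hHB (not_not.1 (not_and.1 hcon hBC) ▸ hHC)
      have h3 : SN (B ⊔ C) H := by
        rw [SN, Subgroup.subgroupOf_sup (le_sup_left.trans hH.2.1) (le_sup_right.trans hH.2.1)]
        exact S0538.result _ _ h1 h2
      exact hHB (eq_of_full_of_sn hH.2 h3 ▸ hPB)
    have hu := hbig (B ⊔ C) (hcard B hB ▸ Set.ncard_lt_ncard hlt (Set.toFinite _))
      ⟨normalClosure_mono_eq_top le_sup_left hBcl, hPt,
        fun h => (hcoat B hB).1 (top_le_iff.1 (h ▸ hjoin))⟩
    exact hLne (hu L (home B) hL (hcoat B hB) (sup_le hBL hCL) hPB)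
  -- a largest intersection
  have : Fintype (Subgroup G) := Fintype.ofFinite _
  obtain ⟨L, hLmem, hLmax⟩ := (Finset.univ.filter
    fun L : Subgroup G => IsCoatom L ∧ A ≤ L ∧ L ≠ M0).exists_max_image
      (fun L => ((L ⊓ M0 : Subgroup G) : Set G).ncard)
      (by obtain ⟨L, h⟩ := hbad; exact ⟨L, by simpa using h⟩)
  simp only [Finset.mem_filter, Finset.mem_univ, true_and] at hLmem hLmax
  obtain ⟨hL, hAL, hLM0⟩ := hLmem
  set D := L ⊓ M0 with hD
  let Sg : Set (Subgroup G) := {C | IsC C ∧ C ≤ D}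
  have hASg : A ∈ Sg := ⟨hAC, le_inf hAL (hAhome ▸ hChome A hAC)⟩
  set J : Subgroup G := sSup Sg with hJ
  have hperm : ∀ y : G, (∀ C ∈ Sg, MulAut.conj y • C ∈ Sg) →
      y ∈ Subgroup.normalizer (J : Set G) := by
    intro y h
    rw [← conj_smul_iff]
    have hle : MulAut.conj y • J ≤ J := by
      rw [Subgroup.pointwise_smul_subset_iff]
      exact sSup_le fun C hC => Subgroup.pointwise_smul_subset_iff.1 (le_sSup (h C hC))
    exact SetLike.coe_injective (Set.eq_of_subset_of_ncard_le hle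
      (le_of_eq (Set.ncard_image_of_injective _ (MulAut.conj y).injective).symm) (Set.toFinite _))
  have key : ∀ Q R : Subgroup G, IsCoatom Q → IsCoatom R → Q ≠ R → D = Q ⊓ R →
      (∃ C ∈ Sg, home C ≠ Q) → ∃ y ∈ Q, y ∉ R ∧ y ∈ Subgroup.normalizer (J : Set G) := by
    intro Q R hQ hR hQR hDQ ⟨C₁, hC₁, hC₁Q⟩
    have hsnQ : ∀ C, IsC C → C ≤ Q → home C ≠ Q → SN C Q := fun C hC hle hne =>
      hsn C hC Q hQ.1 hle fun h => hne ((hQ.le_iff.1 h).resolve_left (hcoat C hC).1)
    let S : Set (Subgroup Q) := {V | IsC (V.map Q.subtype) ∧ home (V.map Q.subtype) ≠ Q}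
    let S₀ : Set (Subgroup Q) := {V | V ∈ S ∧ V.map Q.subtype ≤ D}
    set W : Subgroup G := (sSup S₀).map Q.subtype with hW
    have hWD : W ≤ D := by
      rw [hW, Subgroup.map_le_iff_le_comap]
      exact sSup_le fun V hV => Subgroup.map_le_iff_le_comap.1 hV.2
    have hmapc : ∀ (x : Q) (V : Subgroup Q),
        (MulAut.conj x • V).map Q.subtype = MulAut.conj (x : G) • V.map Q.subtype := by
      intro x V
      change (V.map (MulAut.conj x).toMonoidHom).map Q.subtype =
        (V.map Q.subtype).map (MulAut.conj (x : G)).toMonoidHom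
      rw [Subgroup.map_map, Subgroup.map_map]
      congr 1
    have hScl : ∀ V ∈ S, ∀ x : Q, MulAut.conj x • V ∈ S := by
      intro V hV x
      obtain ⟨h1, h2⟩ := hhome_smul _ hV.1 (x : G)
      change IsC ((MulAut.conj x • V).map Q.subtype) ∧ home ((MulAut.conj x • V).map Q.subtype) ≠ Q
      rw [hmapc, h2]
      refine ⟨h1, fun he => hV.2 ?_⟩
      have hQx : MulAut.conj (x : G) • Q = Q := Subgroup.conj_smul_eq_self_of_mem x.2
      exact MulAction.injective (MulAut.conj (x : G)) (he.trans hQx.symm)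
    obtain ⟨y, hyQ, hyR, hyW⟩ : ∃ y : Q, (y : G) ∈ Q ∧ (y : G) ∉ R ∧
        y ∈ Subgroup.normalizer ((sSup S₀ : Subgroup Q) : Set Q) := by
      by_cases hall : S₀ = S
      · obtain ⟨y, hyQ, hyR⟩ := SetLike.not_le_iff_exists.1
          (fun h : Q ≤ R => hQR ((hQ.le_iff.1 h).resolve_left hR.1).symm)
        refine ⟨⟨y, hyQ⟩, hyQ, hyR, ?_⟩
        rw [← conj_smul_iff, hall]
        apply le_antisymm
        · rw [Subgroup.pointwise_smul_subset_iff]
          exact sSup_le fun V hV =>
            Subgroup.pointwise_smul_subset_iff.1 (le_sSup (hScl V hV _))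
        · refine sSup_le fun V hV => Subgroup.subset_pointwise_smul_iff.2 ?_
          rw [← map_inv]
          exact le_sSup (hScl V hV _)
      · obtain ⟨X, hX, hX0, hXn⟩ := S0539.result S S₀
          (fun V hV => by
            have h := hsnQ _ hV.1 (Subgroup.map_subtype_le V) hV.2
            rwa [SN, Subgroup.subgroupOf, Subgroup.comap_map_eq_self_of_injective
              Q.subtype_injective] at h)
          hScl (ssubset_iff_subset_ne.2 ⟨fun V hV => hV.1, hall⟩)
        obtain ⟨_, ⟨y, hy, rfl⟩, hyD⟩ := SetLike.not_le_iff_exists.1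
          (fun h : X.map Q.subtype ≤ D => hX0 ⟨hX, h⟩)
        exact ⟨y, y.2, fun h => hyD (hDQ ▸ ⟨y.2, h⟩), hXn hy⟩
    refine ⟨y, hyQ, hyR, hperm _ ?_⟩
    -- the conjugates away from `Q`
    have hpres : ∀ x : Q, x ∈ Subgroup.normalizer ((sSup S₀ : Subgroup Q) : Set Q) →
        ∀ C ∈ Sg, home C ≠ Q →
          MulAut.conj (x : G) • C ∈ Sg ∧ home (MulAut.conj (x : G) • C) ≠ Q := by
      intro x hx C hC hne
      have hCQ : C ≤ Q := hC.2.trans (hDQ ▸ inf_le_left)
      have e : (C.subgroupOf Q).map Q.subtype = C := Subgroup.map_subgroupOf_eq_of_le hCQ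
      have hV : C.subgroupOf Q ∈ S₀ := by
        refine ⟨?_, by rw [e]; exact hC.2⟩
        change IsC _ ∧ home _ ≠ Q
        rw [e]; exact ⟨hC.1, hne⟩
      have h1 := hScl _ hV.1 x
      have h2 : MulAut.conj x • C.subgroupOf Q ≤ sSup S₀ := by
        rw [← conj_smul_iff.2 hx]
        exact Subgroup.pointwise_smul_le_pointwise_smul_iff.2 (le_sSup hV)
      have h3 := (Subgroup.map_mono (f := Q.subtype) h2).trans hWD
      change IsC ((MulAut.conj x • C.subgroupOf Q).map Q.subtype) ∧
        home ((MulAut.conj x • C.subgroupOf Q).map Q.subtype) ≠ Q at h1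
      rw [hmapc, e] at h1 h3
      exact ⟨⟨h1.1, h3⟩, h1.2⟩
    intro C hC
    by_cases hne : home C ≠ Q
    · exact (hpres y hyW C hC hne).1
    push Not at hne
    -- a conjugate with home `Q` is fixed by `y`
    suffices h : MulAut.conj (y : G) • C = C by rw [h]; exact hC
    by_contra hCy
    obtain ⟨hC'1, hC'2⟩ := hpres y⁻¹ (inv_mem hyW) C₁ hC₁ hC₁Q
    have hCQ : C ≤ Q := hC.2.trans (hDQ ▸ inf_le_left)
    have hCR : C ≤ R := hC.2.trans (hDQ ▸ inf_le_right)
    have haux : ∀ E ∈ Sg, home E ≠ Q → C ≤ home E := fun E hE hEQ =>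
      (F2 C E R hC.1 hE.1 (fun h => hEQ (h ▸ hne))
        (hne ▸ hE.2.trans (hDQ ▸ inf_le_left)) hR hCR (hE.2.trans (hDQ ▸ inf_le_right))
        (hne ▸ hQR.symm)).1
    have h4 := Subgroup.pointwise_smul_le_pointwise_smul_iff (a := MulAut.conj (y : G)).2
      (haux _ hC'1 hC'2)
    rw [← (hhome_smul _ hC'1.1 (y : G)).2, ← mul_smul, ← map_mul, Subgroup.coe_inv,
      mul_inv_cancel, map_one, one_smul] at h4
    obtain ⟨hB', hB'h⟩ := hhome_smul C hC.1 (y : G)
    rw [hne, Subgroup.conj_smul_eq_self_of_mem hyQ] at hB'h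
    exact (F2 C (MulAut.conj (y : G) • C) (home C₁) hC.1 hB' (Ne.symm hCy)
      ((hChome _ hB').trans (le_of_eq (hB'h.trans hne.symm))) (hcoat _ hC₁.1) (haux C₁ hC₁ hC₁Q) h4
      (hne.symm ▸ hC₁Q)).2 (hne.trans hB'h.symm)
  obtain ⟨x, hxL, hxM0, hxN⟩ := key L M0 hL hM0 hLM0 rfl ⟨A, hASg, hAhome ▸ hLM0.symm⟩
  -- some member has home different from `M0`
  have hW0 : ∃ C ∈ Sg, home C ≠ M0 := by
    by_contra! hall
    have hJA : J = A := by
      refine le_antisymm (sSup_le fun C hC => ?_) (le_sSup hASg)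
      by_contra hne
      exact (F2 A C L hAC hC.1 (fun h => hne h.ge) (hAhome ▸ hC.2.trans inf_le_right) hL hAL
        (hC.2.trans inf_le_left) (hAhome ▸ hLM0)).2 (hAhome.trans (hall C hC).symm)
    exact hxM0 (hNA (hJA ▸ hxN))
  obtain ⟨y, hyM0, hyL, hyN⟩ := key M0 L hM0 hL (Ne.symm hLM0) (inf_comm _ _) hW0
  have hAJ : A ≤ J := le_sSup hASg
  have hNJ : Subgroup.normalizer (J : Set G) ≠ ⊤ := by
    intro h
    have : J.Normal := Subgroup.normalizer_eq_top_iff.1 h
    have h1 : J = ⊤ := top_le_iff.1 (hcl ▸ Subgroup.normalClosure_le_normal hAJ)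
    exact hL.1 (top_le_iff.1 (h1 ▸ (sSup_le fun C hC => hC.2.trans inf_le_left : J ≤ L)))
  have hDN : D ≤ Subgroup.normalizer (J : Set G) := by
    intro d hd
    refine hperm d fun C hC => ⟨(hhome_smul C hC.1 d).1, ?_⟩
    rw [← Subgroup.conj_smul_eq_self_of_mem hd]
    exact Subgroup.pointwise_smul_le_pointwise_smul_iff.2 hC.2
  obtain ⟨P, hP, hNP⟩ := exists_coatom hNJ
  have hPM0 : P ≠ M0 := fun h => hxM0 (h ▸ hNP hxN)
  have hlt : D < P ⊓ M0 := by
    refine lt_of_le_not_ge (le_inf (hDN.trans hNP) inf_le_right) fun h => hyL ?_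
    exact (h ⟨hNP hyN, hyM0⟩).1
  have := hLmax P ⟨hP, hASg.2.trans (hDN.trans hNP), hPM0⟩
  have := Set.ncard_lt_ncard (SetLike.coe_ssubset_coe.2 hlt) (Set.toFinite _)
  omega

end Cfsg.Agent.H29.Zipper
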